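import Cfsg.Agent.H13.RealSizes.Defs
import Cfsg.Agent.H28.BaerSuzuki
import Cfsg.Agent.H28.Isolated
import Cfsg.Agent.S0205

/-!
# Real elements: inverters, lifts, groups without real elements of odd prime order
-/

set_option autoImplicit false
set_option linter.style.haveILetI false

namespace Cfsg.Agent.H13.RealSizes

open scoped Pointwise

universe u

variable {G : Type u} [Group G]

theorem mem_cent {x g : G} : g ∈ cent x ↔ g * x = x * g := Subgroup.mem_centralizer_singleton_iff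

theorem isConj_inv_of_inverted {g y : G} (h : g * y * g⁻¹ = y⁻¹) : IsConj y y⁻¹ :=
  isConj_iff.2 ⟨g, h⟩

theorem conj_pow_eq (g y : G) (n : ℕ) : g * y ^ n * g⁻¹ = (g * y * g⁻¹) ^ n := by
  simpa using map_pow (MulAut.conj g).toMonoidHom y n

/-- Powers of inverted elements are inverted by the same element. -/
theorem inverted_pow {g y : G} (h : g * y * g⁻¹ = y⁻¹) (n : ℕ) :
    g * y ^ n * g⁻¹ = (y ^ n)⁻¹ := by
  rw [conj_pow_eq, h, inv_pow]

/-- Even powers of an inverter centralize and odd powers invert. -/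
theorem inverter_pow {g y : G} (h : g * y * g⁻¹ = y⁻¹) (j : ℕ) :
    g ^ (2 * j) * y * (g ^ (2 * j))⁻¹ = y ∧
      g ^ (2 * j + 1) * y * (g ^ (2 * j + 1))⁻¹ = y⁻¹ := by
  have h' : g * y⁻¹ * g⁻¹ = y := by
    have := congrArg (fun x => x⁻¹) h
    simpa [mul_assoc] using this
  induction j with
  | zero => simpa using h
  | succ j ih =>
    have e1 : g ^ (2 * (j + 1)) * y * (g ^ (2 * (j + 1)))⁻¹ = y := by
      rw [show 2 * (j + 1) = (2 * j + 1) + 1 by omega, pow_succ' g (2 * j + 1)]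
      calc g * g ^ (2 * j + 1) * y * (g * g ^ (2 * j + 1))⁻¹
          = g * (g ^ (2 * j + 1) * y * (g ^ (2 * j + 1))⁻¹) * g⁻¹ := by group
        _ = y := by rw [ih.2, h']
    refine ⟨e1, ?_⟩
    rw [pow_succ' g (2 * (j + 1))]
    calc g * g ^ (2 * (j + 1)) * y * (g * g ^ (2 * (j + 1)))⁻¹
        = g * (g ^ (2 * (j + 1)) * y * (g ^ (2 * (j + 1)))⁻¹) * g⁻¹ := by group
      _ = y⁻¹ := by rw [e1, h]

/-- An inverter can be replaced by an odd power of two-power order. -/
theorem exists_odd_pow_two [Finite G] {g y : G} (h : g * y * g⁻¹ = y⁻¹) :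
    ∃ j : ℕ, (∃ k : ℕ, (g ^ (2 * j + 1)) ^ 2 ^ k = 1) ∧
      g ^ (2 * j + 1) * y * (g ^ (2 * j + 1))⁻¹ = y⁻¹ := by
  obtain ⟨k, m, hm, hkm⟩ := Nat.exists_eq_two_pow_mul_odd (orderOf_pos g).ne'
  obtain ⟨j, rfl⟩ := hm
  refine ⟨j, ⟨k, ?_⟩, (inverter_pow h j).2⟩
  rw [← pow_mul, mul_comm, ← hkm, pow_orderOf_eq_one]

/-- A real element is inverted by an element of two-power order. -/
theorem exists_two_inverter [Finite G] {y : G} (h : IsConj y y⁻¹) :
    ∃ g : G, (∃ k : ℕ, g ^ 2 ^ k = 1) ∧ g * y * g⁻¹ = y⁻¹ := by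
  obtain ⟨g, hg⟩ := isConj_iff.1 h
  obtain ⟨j, hk, hj⟩ := exists_odd_pow_two hg
  exact ⟨_, hk, hj⟩

/-- Normalisers of a subset are closed under powers. -/
theorem pow_conj_mem {R : Set G} {g : G} (h : ∀ x ∈ R, g * x * g⁻¹ ∈ R) :
    ∀ (n : ℕ), ∀ x ∈ R, g ^ n * x * (g ^ n)⁻¹ ∈ R := by
  intro n
  induction n with
  | zero => simp
  | succ n ih =>
    intro x hx
    rw [pow_succ']
    rw [show g * g ^ n * x * (g * g ^ n)⁻¹ = g * (g ^ n * x * (g ^ n)⁻¹) * g⁻¹ by group]
    exact h _ (ih x hx)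

/-- A map of two-power order of a set of odd size has a fixed point. -/
theorem exists_fixed_of_odd {α : Type*} [Finite α] (hα : Odd (Nat.card α)) (σ : Equiv.Perm α)
    {k : ℕ} (hσ : σ ^ 2 ^ k = 1) : ∃ a, σ a = a := by
  haveI : Fact (Nat.Prime 2) := ⟨Nat.prime_two⟩
  have hdvd : orderOf σ ∣ 2 ^ k := orderOf_dvd_of_pow_eq_one hσ
  obtain ⟨i, -, hi⟩ := (Nat.dvd_prime_pow Nat.prime_two).1 hdvd
  have hp : IsPGroup 2 (Subgroup.zpowers σ) :=
    IsPGroup.of_card (n := i) (by rw [Nat.card_zpowers, hi])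
  obtain ⟨a, ha⟩ := hp.nonempty_fixed_point_of_prime_not_dvd_card α
    (fun h2 => (Nat.not_even_iff_odd.2 hα) (even_iff_two_dvd.2 h2))
  exact ⟨a, ha ⟨σ, Subgroup.mem_zpowers σ⟩⟩

/-- A set of odd size closed under `a ↦ g a⁻¹ g⁻¹`, for `g` of two-power order, contains an
element inverted by `g`. -/
theorem exists_inverted_mem [Finite G] {S : Set G} (hS : Odd (Nat.card S)) {g : G} {k : ℕ}
    (hg : g ^ 2 ^ k = 1) (hmaps : ∀ a ∈ S, g * a⁻¹ * g⁻¹ ∈ S) :
    ∃ a ∈ S, g * a * g⁻¹ = a⁻¹ := by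
  let f : S → S := fun a => ⟨g * (a : G)⁻¹ * g⁻¹, hmaps a a.2⟩
  have hinj : Function.Injective f := fun a b hab => Subtype.ext (inv_injective
    (mul_left_cancel (mul_right_cancel (congrArg Subtype.val hab))))
  let σ : Equiv.Perm S := Equiv.ofBijective f (Finite.injective_iff_bijective.1 hinj)
  have h2 : ∀ (i : ℕ) (a : S), ((σ ^ (2 * i)) a : G) = g ^ (2 * i) * a * (g ^ (2 * i))⁻¹ := by
    intro i
    induction i with
    | zero => simp
    | succ i ih =>
      intro a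
      have e : σ ^ (2 * (i + 1)) = σ * (σ * σ ^ (2 * i)) := by
        rw [show 2 * (i + 1) = (2 * i + 1) + 1 by omega, pow_succ', pow_succ']
      rw [e, Equiv.Perm.mul_apply, Equiv.Perm.mul_apply]
      show g * (g * ((σ ^ (2 * i)) a : G)⁻¹ * g⁻¹)⁻¹ * g⁻¹ = _
      rw [ih a, show 2 * (i + 1) = 2 + 2 * i by omega, pow_add]
      group
  have hσ : σ ^ 2 ^ (k + 1) = 1 := by
    refine Equiv.ext fun a => Subtype.ext ?_
    rw [pow_succ, mul_comm, h2, show g ^ (2 * 2 ^ k) = 1 by rw [mul_comm, pow_mul, hg, one_pow]]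
    simp
  obtain ⟨a, ha⟩ := exists_fixed_of_odd hS σ hσ
  have ha' : g * (a : G)⁻¹ * g⁻¹ = a := congrArg Subtype.val ha
  refine ⟨a, a.2, ?_⟩
  have := congrArg (fun x => x⁻¹) ha'
  simpa [mul_assoc] using this

/-- A conjugacy class has as many members as its centraliser has cosets. -/
theorem card_conjugatesOf (d : G) : Nat.card (conjugatesOf d) = (cent d).index := by
  symm
  refine Nat.card_congr (Equiv.ofBijective
    (Quotient.lift (fun y : G => (⟨y * d * y⁻¹, isConj_iff.2 ⟨y, rfl⟩⟩ : conjugatesOf d)) ?_)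
    ⟨?_, ?_⟩)
  · intro a b hab
    have h : a⁻¹ * b * d = d * (a⁻¹ * b) := mem_cent.1 (QuotientGroup.leftRel_apply.1 hab)
    refine Subtype.ext ?_
    show a * d * a⁻¹ = b * d * b⁻¹
    rw [show b * d * b⁻¹ = a * (a⁻¹ * b * d) * b⁻¹ by group, h]
    group
  · rintro ⟨a⟩ ⟨b⟩ hab
    refine Quotient.sound (QuotientGroup.leftRel_apply.2 (mem_cent.2 ?_))
    have h : a * d * a⁻¹ = b * d * b⁻¹ := congrArg Subtype.val hab
    rw [show a⁻¹ * b * d = a⁻¹ * (b * d * b⁻¹) * b by group, ← h]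
    group
  · rintro ⟨e, he⟩
    obtain ⟨y, rfl⟩ := isConj_iff.1 he
    exact ⟨Quotient.mk'' y, rfl⟩

theorem odd_of_piNum {π : Set ℕ} (h2 : 2 ∉ π) {n : ℕ} (hn : PiNum π n) : Odd n := by
  rw [← Nat.not_even_iff_odd]
  exact fun he => h2 (hn 2 Nat.prime_two (even_iff_two_dvd.1 he))

/-- The class of a real element which is not its own inverse has even size. -/
theorem even_index_cent [Finite G] {y : G} (hr : IsConj y y⁻¹) (h2 : y * y ≠ 1) :
    Even (cent y).index := by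
  by_contra hcon
  rw [Nat.not_even_iff_odd, ← card_conjugatesOf] at hcon
  obtain ⟨a, ha, h⟩ := exists_inverted_mem (g := (1 : G)) (k := 0) hcon (by simp) (fun a ha => by
    have ha' : IsConj y a := ha
    obtain ⟨c, hc⟩ := isConj_iff.1 ha'
    show IsConj y (1 * a⁻¹ * 1⁻¹)
    refine hr.trans (isConj_iff.2 ⟨c, ?_⟩)
    rw [← hc]
    group)
  have ha' : IsConj y a := ha
  obtain ⟨c, hc⟩ := isConj_iff.1 ha'
  have h1 : a * a = 1 := by
    simp only [one_mul, inv_one, mul_one] at h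
    nth_rw 1 [h]
    rw [inv_mul_cancel]
  refine h2 ?_
  have : c * (y * y) * c⁻¹ = 1 := by rw [← h1, ← hc]; group
  rwa [conj_eq_one_iff] at this

theorem OddPrimeOrder.ne_one {y : G} (h : OddPrimeOrder y) : y ≠ 1 := by
  rintro rfl
  exact Nat.not_prime_one (orderOf_one (G := G) ▸ h.1)

theorem OddPrimeOrder.mul_self_ne {y : G} (h : OddPrimeOrder y) : y * y ≠ 1 := fun he =>
  h.2 ((Nat.prime_dvd_prime_iff_eq h.1 Nat.prime_two).1
    (orderOf_dvd_of_pow_eq_one (by rw [pow_two, he])))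

theorem OddPrimeOrder.odd {y : G} (h : OddPrimeOrder y) : Odd (orderOf y) :=
  h.1.eq_two_or_odd'.resolve_left h.2

/-- A finite element whose order is not a power of two has a power of odd prime order. -/
theorem exists_pow_oddPrime [Finite G] {w : G} (h : ∀ k : ℕ, w ^ 2 ^ k ≠ 1) :
    ∃ n : ℕ, OddPrimeOrder (w ^ n) := by
  by_cases hq : ∃ q, q.Prime ∧ q ∣ orderOf w ∧ q ≠ 2
  · obtain ⟨q, hq1, hq2, hq3⟩ := hq
    refine ⟨orderOf w / q, ?_⟩
    have : orderOf (w ^ (orderOf w / q)) = q := orderOf_pow_orderOf_div (orderOf_pos w).ne' hq2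
    unfold OddPrimeOrder
    rw [this]
    exact ⟨hq1, hq3⟩
  · push Not at hq
    refine absurd ?_ (h (orderOf w).primeFactorsList.length)
    apply orderOf_dvd_iff_pow_eq_one.1
    exact (Nat.eq_prime_pow_of_unique_prime_dvd (orderOf_pos w).ne'
      (fun hd hdvd => hq _ hd hdvd)).dvd

/-- Two involutions whose product is not of two-power order yield an inverted element of odd prime
order. -/
theorem exists_inverted_of_pair [Finite G] {x y : G} (hx : x * x = 1) (hy : y * y = 1)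
    (h : ∀ k : ℕ, (x * y) ^ 2 ^ k ≠ 1) :
    ∃ n : ℕ, OddPrimeOrder ((x * y) ^ n) ∧ x * (x * y) ^ n * x⁻¹ = ((x * y) ^ n)⁻¹ := by
  obtain ⟨n, hn⟩ := exists_pow_oddPrime h
  refine ⟨n, hn, inverted_pow ?_ n⟩
  rw [inv_eq_of_mul_eq_one_right hx]
  exact Cfsg.Agent.H28.conj_mul_eq_inv hx hy

/-- An involution outside the `2`-core inverts an element of odd prime order of its normal
closure. -/
theorem exists_inverted_of_not_mem [Finite G] {t : G} (ht : orderOf t = 2)
    (hnot : t ∉ Cfsg.pCore 2 G) :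
    ∃ y : G, OddPrimeOrder y ∧ t * y * t⁻¹ = y⁻¹ ∧
      y ∈ Subgroup.closure (conjugatesOf t) := by
  haveI : Fact (Nat.Prime 2) := ⟨Nat.prime_two⟩
  by_contra hcon
  push Not at hcon
  have ht2 := Cfsg.Agent.H28.mul_self_of_orderOf_two ht
  obtain ⟨N, hN, hNp, htN⟩ := Cfsg.Agent.H28.baer_suzuki_element (p := 2) t (fun g => by
    have hv : orderOf (g * t * g⁻¹) = 2 := by rw [Cfsg.Agent.H28.orderOf_conj_eq, ht]
    have hex : ∃ k : ℕ, (t * (g * t * g⁻¹)) ^ 2 ^ k = 1 := by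
      by_contra hk
      push Not at hk
      obtain ⟨n, hn, hn'⟩ := exists_inverted_of_pair ht2
        (Cfsg.Agent.H28.mul_self_of_orderOf_two hv) hk
      exact hcon _ hn hn' (Subgroup.pow_mem _ (Subgroup.mul_mem _
        (Subgroup.subset_closure (show t ∈ conjugatesOf t from IsConj.refl t))
        (Subgroup.subset_closure (show g * t * g⁻¹ ∈ conjugatesOf t from
          isConj_iff.2 ⟨g, rfl⟩))) n)
    obtain ⟨k, hk⟩ := hex
    exact Cfsg.Agent.H28.isPGroup_closure_pair ht hv (orderOf_dvd_of_pow_eq_one hk))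
  exact hnot (Cfsg.Agent.H19.le_pCore hN hNp htN)

/-- With trivial `2`-core, each involution inverts an element of odd prime order. -/
theorem exists_inverted_of_core [Finite G] (hcore : Cfsg.pCore 2 G = ⊥) {t : G}
    (ht : orderOf t = 2) :
    ∃ y : G, OddPrimeOrder y ∧ t * y * t⁻¹ = y⁻¹ := by
  obtain ⟨y, hy, hy', -⟩ := exists_inverted_of_not_mem ht (by
    rw [hcore, Subgroup.mem_bot]
    exact Cfsg.Agent.H28.ne_one_of_orderOf_two ht)
  exact ⟨y, hy, hy'⟩

/-- Indices of subgroups of coprime index multiply. -/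
theorem index_inf_of_coprime [Finite G] (A B : Subgroup G) (h : A.index.Coprime B.index) :
    (A ⊓ B).index = A.index * B.index := by
  refine le_antisymm (Subgroup.index_inf_le (H := A) (K := B)) (Nat.le_of_dvd ?_ ?_)
  · exact Nat.pos_of_ne_zero Subgroup.index_ne_zero_of_finite
  · exact Nat.Coprime.mul_dvd_of_dvd_of_dvd h (Subgroup.index_dvd_of_le inf_le_left)
      (Subgroup.index_dvd_of_le inf_le_right)

/-- Subgroups of coprime index factorize the group. -/
theorem exists_mul_of_coprime [Finite G] (A B : Subgroup G) (h : A.index.Coprime B.index)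
    (g : G) : ∃ a ∈ A, ∃ b ∈ B, g = a * b := by
  classical
  have h1 := index_inf_of_coprime A B h
  have h2 : B.relIndex A = B.index := by
    have e := Subgroup.relIndex_mul_index (inf_le_left : A ⊓ B ≤ A)
    rw [h1, Subgroup.inf_relIndex_left, mul_comm A.index] at e
    exact Nat.eq_of_mul_eq_mul_right (Nat.pos_of_ne_zero Subgroup.index_ne_zero_of_finite) e
  let f : A ⧸ B.subgroupOf A → G ⧸ B :=
    Quotient.lift (fun a : A => ((a : G) : G ⧸ B)) (fun a b hab => QuotientGroup.eq.2 (by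
      simpa [Subgroup.mem_subgroupOf] using QuotientGroup.leftRel_apply.1 hab))
  have hinj : Function.Injective f := by
    rintro ⟨a⟩ ⟨b⟩ hab
    refine Quotient.sound (QuotientGroup.leftRel_apply.2 ?_)
    simpa [Subgroup.mem_subgroupOf] using QuotientGroup.eq.1 hab
  have hbij : Function.Bijective f :=
    hinj.bijective_of_nat_card_le (by rw [← Subgroup.index_eq_card, ← Subgroup.index_eq_card]; exact h2.ge)
  obtain ⟨⟨a⟩, ha⟩ := hbij.2 (g : G ⧸ B)
  exact ⟨a, a.2, (a : G)⁻¹ * g, QuotientGroup.eq.1 ha, by group⟩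

/-- An involution centralising modulo a normal subgroup of odd order. -/
theorem exists_mul_cent_of_comm_mem [Finite G] (O : Subgroup G) [O.Normal]
    (hO : Odd (Nat.card O)) {u : G} (hu : orderOf u = 2) (h : ∀ g : G, u * g * u⁻¹ * g⁻¹ ∈ O)
    (g : G) : ∃ a ∈ O, ∃ c ∈ cent u, g = a * c := by
  have hu2 := Cfsg.Agent.H28.mul_self_of_orderOf_two hu
  have hui := Cfsg.Agent.H28.inv_eq_self_of_orderOf_two hu
  have hv2 : (g * u * g⁻¹) * (g * u * g⁻¹) = 1 := by
    rw [show g * u * g⁻¹ * (g * u * g⁻¹) = g * (u * u) * g⁻¹ by group, hu2]; group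
  have hwO : (g * u * g⁻¹) * u ∈ O := by
    have := O.inv_mem (h g)
    rw [show (u * g * u⁻¹ * g⁻¹)⁻¹ = g * u * g⁻¹ * u⁻¹ by group, hui] at this
    exact this
  obtain ⟨i, hi⟩ : Odd (orderOf ((g * u * g⁻¹) * u)) :=
    hO.of_dvd_nat (by simpa using Subgroup.orderOf_dvd_natCard O hwO)
  set w := (g * u * g⁻¹) * u with hw
  have hinv : u * w * u⁻¹ = w⁻¹ := by
    rw [hui]
    exact Cfsg.Agent.H28.conj_mul_eq_inv' hv2 hu2
  have haO : w ^ (i + 1) ∈ O := O.pow_mem hwO _
  refine ⟨w ^ (i + 1), haO, (w ^ (i + 1))⁻¹ * g, mem_cent.2 ?_, by group⟩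
  have h1 : w ^ (i + 1) * u * (w ^ (i + 1))⁻¹ = g * u * g⁻¹ := by
    have e : u * (w ^ (i + 1))⁻¹ = w ^ (i + 1) * u := by
      rw [← inverted_pow hinv (i + 1)]
      calc u * (u * w ^ (i + 1) * u⁻¹) = (u * u) * w ^ (i + 1) * u⁻¹ := by group
        _ = w ^ (i + 1) * u := by rw [hu2, one_mul, hui]
    rw [mul_assoc, e, ← mul_assoc, ← pow_add, show i + 1 + (i + 1) = (2 * i + 1) + 1 by omega,
      pow_succ, ← hi, pow_orderOf_eq_one, one_mul, hw, mul_assoc, hu2, mul_one]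
  calc (w ^ (i + 1))⁻¹ * g * u
      = (w ^ (i + 1))⁻¹ * (g * u * g⁻¹) * g := by group
    _ = u * ((w ^ (i + 1))⁻¹ * g) := by rw [← h1]; group

/-- A Sylow subgroup of a normalised subgroup is normalised by a modified element. -/
theorem exists_normalizing_mem [Finite G] {p : ℕ} [Fact p.Prime] (M : Subgroup G) (P : Sylow p M)
    {g : G} (hg : ∀ x ∈ M, g * x * g⁻¹ ∈ M) :
    ∃ m ∈ M, ∀ x ∈ (P : Subgroup M).map M.subtype,
      (m * g) * x * (m * g)⁻¹ ∈ (P : Subgroup M).map M.subtype := by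
  classical
  let φ : M →* M :=
    { toFun := fun x => ⟨g * x * g⁻¹, hg x x.2⟩
      map_one' := Subtype.ext (by simp)
      map_mul' := fun a b => Subtype.ext (by simp [mul_assoc]) }
  have hφ : Function.Injective φ := fun a b hab => Subtype.ext
    (mul_left_cancel (mul_right_cancel (congrArg Subtype.val hab)))
  have hc : Nat.card ((P : Subgroup M).map φ) = p ^ (Nat.card M).factorization p := by
    rw [Subgroup.card_map_of_injective hφ, P.card_eq_multiplicity]
  let Q : Sylow p M := Sylow.ofCard _ hc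
  obtain ⟨m, hm⟩ := MulAction.exists_smul_eq M Q P
  refine ⟨m, m.2, ?_⟩
  rintro _ ⟨x, hx, rfl⟩
  have hmem : MulAut.conj m (φ x) ∈ (P : Subgroup M) := by
    rw [← hm]
    exact Subgroup.smul_mem_pointwise_smul _ _ _ (Subgroup.mem_map_of_mem φ hx)
  exact ⟨_, hmem, by simp [φ, mul_assoc]⟩

/-- A real element of a quotient by a normal subgroup of odd order lifts to a real element. -/
theorem exists_real_lift_odd [Finite G] (N : Subgroup G) [N.Normal] (hN : Odd (Nat.card N))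
    {q : G ⧸ N} (hr : IsConj q q⁻¹) : ∃ y : G, (y : G ⧸ N) = q ∧ IsConj y y⁻¹ := by
  obtain ⟨c, hc⟩ := isConj_iff.1 hr
  induction c using QuotientGroup.induction_on with
  | H g₀ =>
    obtain ⟨k, m, hm, hkm⟩ := Nat.exists_eq_two_pow_mul_odd (orderOf_pos g₀).ne'
    obtain ⟨j, rfl⟩ := hm
    have hg : (g₀ ^ (2 * j + 1)) ^ 2 ^ k = 1 := by
      rw [← pow_mul, mul_comm, ← hkm, pow_orderOf_eq_one]
    set g := g₀ ^ (2 * j + 1) with hgdef
    have hgq : (g : G ⧸ N) * q * (g : G ⧸ N)⁻¹ = q⁻¹ := by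
      rw [hgdef, QuotientGroup.mk_pow]; exact (inverter_pow hc j).2
    obtain ⟨x, hx⟩ := QuotientGroup.mk_surjective q
    have hcard : Nat.card {a : G | (a : G ⧸ N) = q} = Nat.card N :=
      Nat.card_congr
        { toFun := fun a => ⟨x⁻¹ * a, QuotientGroup.eq.1 (hx.trans a.2.symm)⟩
          invFun := fun n => ⟨x * n, by
            show ((x * n : G) : G ⧸ N) = q
            rw [QuotientGroup.mk_mul, (QuotientGroup.eq_one_iff (n : G)).2 n.2, mul_one, hx]⟩
          left_inv := fun a => Subtype.ext (by simp)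
          right_inv := fun n => Subtype.ext (by simp) }
    obtain ⟨a, ha, hainv⟩ := exists_inverted_mem (hcard ▸ hN) hg (fun a ha => by
      show ((g * a⁻¹ * g⁻¹ : G) : G ⧸ N) = q
      simp only [QuotientGroup.mk_mul, QuotientGroup.mk_inv]
      rw [show (a : G ⧸ N) = q from ha]
      have := congrArg (fun z => z⁻¹) hgq
      simpa [mul_assoc] using this)
    exact ⟨a, ha, isConj_inv_of_inverted hainv⟩

/-- A real element of odd prime order of a quotient lifts to a real element. -/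
theorem exists_real_lift_prime [Finite G] (N : Subgroup G) [N.Normal] {q : G ⧸ N}
    (hq : OddPrimeOrder q) (hr : IsConj q q⁻¹) : ∃ y : G, (y : G ⧸ N) = q ∧ IsConj y y⁻¹ := by
  classical
  haveI : Fact (orderOf q).Prime := ⟨hq.1⟩
  set M : Subgroup G := (Subgroup.zpowers q).comap (QuotientGroup.mk' N) with hM
  obtain ⟨c, hc⟩ := isConj_iff.1 hr
  induction c using QuotientGroup.induction_on with
  | H g₀ =>
    have hgM : ∀ x ∈ M, g₀ * x * g₀⁻¹ ∈ M := by
      intro x hx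
      obtain ⟨i, hi⟩ := Subgroup.mem_zpowers_iff.1 hx
      refine Subgroup.mem_zpowers_iff.2 ⟨-i, ?_⟩
      have e : QuotientGroup.mk' N (g₀ * x * g₀⁻¹) = (g₀ : G ⧸ N) * q ^ i * (g₀ : G ⧸ N)⁻¹ := by
        rw [hi]; simp
      rw [e, zpow_neg, ← inv_zpow, ← hc, conj_zpow]
    obtain ⟨P⟩ := (inferInstance : Nonempty (Sylow (orderOf q) M))
    obtain ⟨m, hmM, hnorm⟩ := exists_normalizing_mem M P hgM
    set R := (P : Subgroup M).map M.subtype with hR
    have hinvM : ((m * g₀ : G) : G ⧸ N) * q * ((m * g₀ : G) : G ⧸ N)⁻¹ = q⁻¹ := by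
      obtain ⟨i, hi⟩ := Subgroup.mem_zpowers_iff.1 hmM
      have hi' : (m : G ⧸ N) = q ^ i := hi.symm
      rw [QuotientGroup.mk_mul, hi', mul_inv_rev,
        show q ^ i * (g₀ : G ⧸ N) * q * ((g₀ : G ⧸ N)⁻¹ * (q ^ i)⁻¹)
          = q ^ i * ((g₀ : G ⧸ N) * q * (g₀ : G ⧸ N)⁻¹) * (q ^ i)⁻¹ by group, hc]
      group
    obtain ⟨k, l, hl, hkl⟩ := Nat.exists_eq_two_pow_mul_odd (orderOf_pos (m * g₀)).ne'
    obtain ⟨j, rfl⟩ := hl
    have hg : ((m * g₀) ^ (2 * j + 1)) ^ 2 ^ k = 1 := by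
      rw [← pow_mul, mul_comm, ← hkl, pow_orderOf_eq_one]
    have hgR : ∀ x ∈ R, (m * g₀) ^ (2 * j + 1) * x * ((m * g₀) ^ (2 * j + 1))⁻¹ ∈ R :=
      pow_conj_mem (R := (R : Set G)) hnorm _
    set g := (m * g₀) ^ (2 * j + 1) with hgdef
    have hgq : (g : G ⧸ N) * q * (g : G ⧸ N)⁻¹ = q⁻¹ := by
      rw [hgdef, QuotientGroup.mk_pow]; exact (inverter_pow hinvM j).2
    -- the Sylow subgroup covers `⟨q⟩`
    let π' : M →* Subgroup.zpowers q :=
      { toFun := fun x => ⟨QuotientGroup.mk' N x, x.2⟩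
        map_one' := Subtype.ext (by simp)
        map_mul' := fun a b => Subtype.ext (by simp) }
    have hπ : Function.Surjective π' := by
      rintro ⟨z, hz⟩
      obtain ⟨x, rfl⟩ := QuotientGroup.mk'_surjective N z
      exact ⟨⟨x, hz⟩, rfl⟩
    have hPtop : (P : Subgroup M).map π' = ⊤ := by
      have h1 : ((P : Subgroup M).map π').index ∣ (P : Subgroup M).index :=
        Subgroup.index_map_dvd _ hπ
      have h2 : ((P : Subgroup M).map π').index ∣ orderOf q := by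
        exact (Subgroup.index_dvd_card _).trans (Nat.card_zpowers q).dvd
      rcases hq.1.eq_one_or_self_of_dvd _ h2 with h | h
      · exact Subgroup.index_eq_one.1 h
      · exact absurd (h.symm.dvd.trans h1) P.not_dvd_index
    obtain ⟨⟨x, hxM⟩, hxP, hxq⟩ : (⟨q, Subgroup.mem_zpowers q⟩ : Subgroup.zpowers q) ∈
        (P : Subgroup M).map π' := hPtop ▸ Subgroup.mem_top _
    have hxq' : (x : G ⧸ N) = q := congrArg Subtype.val hxq
    have hxR : x ∈ R := ⟨⟨x, hxM⟩, hxP, rfl⟩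
    have hRp : IsPGroup (orderOf q) R := P.isPGroup'.map _
    obtain ⟨e, he⟩ := IsPGroup.iff_card.1 (hRp.to_le (inf_le_left : R ⊓ N ≤ R))
    have hcard : Nat.card {a : G | a ∈ R ∧ (a : G ⧸ N) = q} = Nat.card (R ⊓ N : Subgroup G) :=
      Nat.card_congr
        { toFun := fun a => ⟨x⁻¹ * a, R.mul_mem (R.inv_mem hxR) a.2.1,
            QuotientGroup.eq.1 (hxq'.trans a.2.2.symm)⟩
          invFun := fun n => ⟨x * n, R.mul_mem hxR n.2.1, by
            rw [QuotientGroup.mk_mul, (QuotientGroup.eq_one_iff (n : G)).2 n.2.2, mul_one, hxq']⟩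
          left_inv := fun a => Subtype.ext (by simp)
          right_inv := fun n => Subtype.ext (by simp) }
    obtain ⟨a, ha, hainv⟩ := exists_inverted_mem (hcard ▸ he ▸ hq.odd.pow) hg (fun a ha => by
      refine ⟨hgR _ (R.inv_mem ha.1), ?_⟩
      simp only [QuotientGroup.mk_mul, QuotientGroup.mk_inv]
      rw [show (a : G ⧸ N) = q from ha.2]
      have := congrArg (fun z => z⁻¹) hgq
      simpa [mul_assoc] using this)
    exact ⟨a, ha.2, isConj_inv_of_inverted hainv⟩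

/-- An element of odd prime order that is a power of a lift. -/
theorem exists_pow_of_quotient [Finite G] (N : Subgroup G) [N.Normal] {y : G}
    (hy : OddPrimeOrder (y : G ⧸ N)) : ∃ n : ℕ, OddPrimeOrder (y ^ n) := by
  refine exists_pow_oddPrime fun k hk => ?_
  have : (y : G ⧸ N) ^ 2 ^ k = 1 := by rw [← QuotientGroup.mk_pow, hk, QuotientGroup.mk_one]
  exact hy.2 ((Nat.prime_dvd_prime_iff_eq hy.1 Nat.prime_two).1
    (hy.1.dvd_of_dvd_pow (orderOf_dvd_of_pow_eq_one this)))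

/-- A finite group without real elements of odd prime order has a normal Sylow `2`-subgroup and
is solvable. -/
theorem twoClosed_of_noReal [Finite G]
    (h : ∀ y : G, OddPrimeOrder y → ¬ IsConj y y⁻¹) :
    Odd (Cfsg.pCore 2 G).index ∧ Group.IsSolvable G := by
  haveI : Fact (Nat.Prime 2) := ⟨Nat.prime_two⟩
  haveI := Cfsg.Agent.H19.pCore_normal 2 G
  set Q := Cfsg.pCore 2 G with hQ
  have hodd : Odd (Nat.card (G ⧸ Q)) := by
    rw [← Nat.not_even_iff_odd, even_iff_two_dvd]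
    intro h2
    obtain ⟨q, hq⟩ := exists_prime_orderOf_dvd_card' 2 h2
    obtain ⟨z, hz, hzinv⟩ := exists_inverted_of_core (Cfsg.Agent.H19.pCore_quotient_pCore 2) hq
    obtain ⟨y, hy, hyr⟩ := exists_real_lift_prime Q hz (isConj_inv_of_inverted hzinv)
    obtain ⟨g, hg⟩ := isConj_iff.1 hyr
    obtain ⟨n, hn⟩ := exists_pow_of_quotient Q (y := y) (by rw [hy]; exact hz)
    exact h _ hn (isConj_inv_of_inverted (inverted_pow hg n))
  refine ⟨by rwa [Subgroup.index_eq_card], ?_⟩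
  haveI : Group.IsSolvable (G ⧸ Q) := Cfsg.Agent.S0205.result hodd
  haveI : Group.IsNilpotent Q := (Cfsg.Agent.H19.pCore_isPGroup (G := G) 2).isNilpotent
  exact solvable_of_ker_le_range Q.subtype (QuotientGroup.mk' Q) (by simp)

/-- The subgroup form of `twoClosed_of_noReal`. -/
theorem twoClosed_subgroup [Finite G] (K : Subgroup G)
    (h : ∀ y ∈ K, OddPrimeOrder y → ∀ g ∈ K, g * y * g⁻¹ ≠ y⁻¹) :
    TwoClosed K ∧ Group.IsSolvable K := by
  obtain ⟨hodd, hsol⟩ := twoClosed_of_noReal (G := K) (fun y hy hr => by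
    obtain ⟨g, hg⟩ := isConj_iff.1 hr
    refine h y y.2 ?_ g g.2 (by simpa using congrArg Subtype.val hg)
    simpa [OddPrimeOrder, Subgroup.orderOf_coe] using hy)
  refine ⟨⟨(Cfsg.pCore 2 K).map K.subtype, Subgroup.map_subtype_le _,
    (Cfsg.Agent.H19.pCore_isPGroup (G := K) 2).map _, fun x hx k hk => ?_⟩, hsol⟩
  haveI := Cfsg.Agent.H19.pCore_normal 2 K
  refine ⟨⟨x, hx⟩, ?_, rfl⟩
  rw [SetLike.mem_coe, ← QuotientGroup.eq_one_iff, ← orderOf_eq_one_iff]
  refine Nat.eq_one_of_dvd_coprimes (a := Nat.card (K ⧸ Cfsg.pCore 2 K)) (b := 2 ^ k)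
    ?_ (orderOf_dvd_natCard _) (orderOf_dvd_of_pow_eq_one ?_)
  · rw [← Subgroup.index_eq_card]
    exact Nat.Coprime.pow_right _ (Nat.coprime_two_right.2 hodd)
  · rw [← QuotientGroup.mk_pow, show (⟨x, hx⟩ : K) ^ 2 ^ k = 1 from Subtype.ext hk]
    rfl

/-- The product of two elements of two-power order of a two-closed subgroup has two-power
order. -/
theorem TwoClosed.exists_pow_mul {K : Subgroup G} (h : TwoClosed K) {x y : G} (hx : x ∈ K)
    (hy : y ∈ K) {i j : ℕ} (hxi : x ^ 2 ^ i = 1) (hyj : y ^ 2 ^ j = 1) :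
    ∃ k : ℕ, (x * y) ^ 2 ^ k = 1 := by
  obtain ⟨N, -, hN, hmem⟩ := h
  obtain ⟨k, hk⟩ := hN ⟨x * y, N.mul_mem (hmem x hx i hxi) (hmem y hy j hyj)⟩
  exact ⟨k, by simpa using congrArg Subtype.val hk⟩

end Cfsg.Agent.H13.RealSizes
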