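import Mathlib
import Cfsg.Agent.H19.Cores
import Cfsg.Agent.H45.Transitive.Basic

/-!
# Real class sizes split by a set of primes: definitions
-/

set_option autoImplicit false

namespace Cfsg.Agent.H13.RealSizes

open Cfsg.Agent.H45.Trans

variable {G : Type*} [Group G]

/-- All primes dividing `n` lie in `π`. -/
def PiNum (π : Set ℕ) (n : ℕ) : Prop := ∀ q : ℕ, q.Prime → q ∣ n → q ∈ π

/-- No prime dividing `n` lies in `π`. -/
def PiFree (π : Set ℕ) (n : ℕ) : Prop := ∀ q : ℕ, q.Prime → q ∣ n → q ∉ π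

/-- The centralizer of an element. -/
abbrev cent (x : G) : Subgroup G := Subgroup.centralizer ({x} : Set G)

/-- An element of odd prime order. -/
def OddPrimeOrder (y : G) : Prop := (orderOf y).Prime ∧ orderOf y ≠ 2

/-- An element of odd prime order inverted by an involution. -/
def StronglyRealPrime (y : G) : Prop :=
  OddPrimeOrder y ∧ ∃ i : G, orderOf i = 2 ∧ i * y * i⁻¹ = y⁻¹

/-- The elements of `2`-power order of `H` lie in one `2`-subgroup of `H`. -/
def TwoClosed (H : Subgroup G) : Prop :=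
  ∃ N : Subgroup G, N ≤ H ∧ IsPGroup 2 N ∧ ∀ x ∈ H, ∀ k : ℕ, x ^ 2 ^ k = 1 → x ∈ N

section Module

variable {V : Type*} [AddCommGroup V] [Module (ZMod 2) V]

/-- A faithful irreducible group over two elements with orbits of `π`-size whose real elements of
odd prime order have classes of `π'`-size. -/
structure Hyp (π : Set ℕ) (ρ : G →* (V ≃ₗ[ZMod 2] V)) : Prop where
  two : 2 ∉ π
  inj : Function.Injective ρ
  irr : ∀ W : Submodule (ZMod 2) V, (∀ g : G, ∀ w ∈ W, ρ g w ∈ W) → W = ⊥ ∨ W = ⊤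
  orb : ∀ v : V, v ≠ 0 → PiNum π (stab ρ v).index
  real : ∀ y : G, OddPrimeOrder y → IsConj y y⁻¹ → PiFree π (cent y).index

/-- The hypotheses forcing every involution to be isolated. -/
structure EndHyp (ρ : G →* (V ≃ₗ[ZMod 2] V)) : Prop where
  inj : Function.Injective ρ
  irr : ∀ W : Submodule (ZMod 2) V, (∀ g : G, ∀ w ∈ W, ρ g w ∈ W) → W = ⊥ ∨ W = ⊤
  odd : ∀ v : V, v ≠ 0 → Odd (stab ρ v).index
  fix_eq : ∀ u z : G, orderOf u = 2 → orderOf z = 2 → Commute u z → fixV ρ u = fixV ρ z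
  semireg : ∀ y : G, StronglyRealPrime y → Semireg ρ y
  trans : ∀ y : G, StronglyRealPrime y → ∀ v : V, v ≠ 0 → ∀ g : G,
    ∃ c ∈ cent y, ρ c v = ρ g v

end Module

end Cfsg.Agent.H13.RealSizes
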