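import Mathlib.Algebra.Module.ZMod
import Cfsg.Agent.H13.RealSizes.Defs

/-!
# Real class sizes split by a set of primes: the chief factors of an elementary abelian subgroup
-/

set_option autoImplicit false
set_option linter.style.haveILetI false

namespace Cfsg.Agent.H13.RealSizes

open Cfsg.Agent.H45.Trans
open scoped commutatorElement

universe u

/-- The action of a group on the quotient of two normal elementary abelian two-subgroups, as a
representation. -/
theorem exists_factor_rep {G : Type u} [Group G] [Finite G] (A B : Subgroup G) [hA : A.Normal]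
    [hB : B.Normal] (hcomm : ∀ a ∈ B, ∀ b ∈ B, a * b = b * a) (hexp : ∀ a ∈ B, a * a = 1) :
    ∃ (V : Type u) (_ : AddCommGroup V) (_ : Module (ZMod 2) V) (_ : Finite V)
      (f : B → V) (ρ : G →* (V ≃ₗ[ZMod 2] V)),
      Function.Surjective f ∧ (∀ x y : B, f (x * y) = f x + f y) ∧
      (∀ x : B, f x = 0 ↔ (x : G) ∈ A) ∧
      ∀ (g : G) (x : B), ρ g (f x) = f ⟨g * x * g⁻¹, hB.conj_mem x x.2 g⟩ := by
  classical
  letI : CommGroup B :=
    { (inferInstance : Group B) with mul_comm := fun a b => Subtype.ext (hcomm a a.2 b b.2) }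
  let A' : Subgroup B := A.subgroupOf B
  letI : Module (ZMod 2) (Additive (B ⧸ A')) := AddCommGroup.zmodModule (fun x => by
    obtain ⟨b, hb⟩ := QuotientGroup.mk_surjective (Additive.toMul x)
    apply Additive.toMul.injective
    rw [toMul_nsmul, toMul_zero, ← hb, ← QuotientGroup.mk_pow, pow_two,
      show b * b = 1 from Subtype.ext (hexp b b.2), QuotientGroup.mk_one])
  let c : G → (B →* B) := fun g =>
    { toFun := fun x => ⟨g * x * g⁻¹, hB.conj_mem x x.2 g⟩
      map_one' := Subtype.ext (by simp)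
      map_mul' := fun x y => Subtype.ext (by simp [mul_assoc]) }
  have hc : ∀ g, A' ≤ A'.comap (c g) := fun g x hx => hA.conj_mem _ hx g
  let T : G → (Additive (B ⧸ A') →+ Additive (B ⧸ A')) := fun g =>
    MonoidHom.toAdditive (QuotientGroup.map A' A' (c g) (hc g))
  have hT : ∀ g (x : B), T g (Additive.ofMul (QuotientGroup.mk x)) =
      Additive.ofMul (QuotientGroup.mk (c g x)) := fun g x => rfl
  have hT1 : ∀ v, T 1 v = v := by
    intro v
    obtain ⟨b, hb⟩ := QuotientGroup.mk_surjective (Additive.toMul v)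
    rw [← ofMul_toMul v, ← hb, hT, show c 1 b = b from Subtype.ext (by simp [c])]
  have hTm : ∀ g h v, T (g * h) v = T g (T h v) := by
    intro g h v
    obtain ⟨b, hb⟩ := QuotientGroup.mk_surjective (Additive.toMul v)
    rw [← ofMul_toMul v, ← hb, hT, hT, hT,
      show c (g * h) b = c g (c h b) from Subtype.ext (by simp [c, mul_assoc])]
  let R : G →* (Additive (B ⧸ A') ≃ₗ[ZMod 2] Additive (B ⧸ A')) :=
    { toFun := fun g =>
        { toFun := T g
          map_add' := (T g).map_add
          map_smul' := fun k v => ZMod.map_smul (T g) k v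
          invFun := T g⁻¹
          left_inv := fun v => by
            show T g⁻¹ (T g v) = v
            rw [← hTm, inv_mul_cancel, hT1]
          right_inv := fun v => by
            show T g (T g⁻¹ v) = v
            rw [← hTm, mul_inv_cancel, hT1] }
      map_one' := LinearEquiv.ext fun v => hT1 v
      map_mul' := fun g h => LinearEquiv.ext fun v => hTm g h v }
  refine ⟨Additive (B ⧸ A'), inferInstance, inferInstance, inferInstance,
    fun x => Additive.ofMul (QuotientGroup.mk x), R, ?_, fun x y => rfl, fun x => ?_, fun g x => rfl⟩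
  · intro v
    obtain ⟨b, hb⟩ := QuotientGroup.mk_surjective (Additive.toMul v)
    exact ⟨b, by show Additive.ofMul (QuotientGroup.mk b : B ⧸ A') = v; rw [hb, ofMul_toMul]⟩
  · show Additive.ofMul (QuotientGroup.mk x : B ⧸ A') = 0 ↔ _
    rw [ofMul_eq_zero, QuotientGroup.eq_one_iff]
    exact Subgroup.mem_subgroupOf

/-- Some derived subgroup centralises an elementary abelian normal subgroup, given that the
groups satisfying the module hypotheses are soluble and that real classes lift. -/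
theorem exists_derived_le_centralizer {G : Type u} [Group G] [Finite G] {π : Set ℕ} (h2 : 2 ∉ π)
    (hmod : ∀ (K : Type u) [Group K] [Finite K] (V : Type u) [AddCommGroup V] [Module (ZMod 2) V]
      [Finite V] (ρ : K →* (V ≃ₗ[ZMod 2] V)), Hyp π ρ → Group.IsSolvable K)
    (hlift : ∀ (N : Subgroup G) [N.Normal] {q : G ⧸ N}, OddPrimeOrder q → IsConj q q⁻¹ →
      ∃ y : G, (y : G ⧸ N) = q ∧ IsConj y y⁻¹)
    (W : Subgroup G) (hcomm : ∀ a ∈ W, ∀ b ∈ W, a * b = b * a) (hexp : ∀ a ∈ W, a * a = 1)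
    (hidx : ∀ d ∈ W, PiNum π (cent d).index)
    (hreal : ∀ y : G, IsConj y y⁻¹ → y * y ≠ 1 → PiFree π (cent y).index) :
    ∀ B : Subgroup G, B.Normal → B ≤ W →
      ∃ n, derivedSeries G n ≤ Subgroup.centralizer (B : Set G) := by
  classical
  intro B
  induction hk : Nat.card B using Nat.strong_induction_on generalizing B with
  | _ k ih =>
  intro hBn hBW
  subst hk
  by_cases hB0 : B = ⊥
  · exact ⟨0, fun g _ => Subgroup.mem_centralizer_iff.2 fun x hx => by
      rw [hB0, SetLike.mem_coe, Subgroup.mem_bot] at hx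
      rw [hx, one_mul, mul_one]⟩
  -- a maximal normal subgroup below
  obtain ⟨A, hA, hAmax⟩ := Set.Finite.exists_maximal
    (Set.toFinite {A : Subgroup G | A.Normal ∧ A < B}) ⟨⊥, inferInstance, Ne.bot_lt hB0⟩
  obtain ⟨hAn, hAB⟩ := hA
  haveI := hAn; haveI := hBn
  obtain ⟨n₁, hn₁⟩ := ih (Nat.card A) (Set.Finite.card_lt_card (Set.toFinite (B : Set G)) hAB) A rfl
    hAn (hAB.le.trans hBW)
  obtain ⟨V, _, _, _, f, ρ, hsurj, hfadd, hf0, hρ⟩ := exists_factor_rep A B
    (fun a ha b hb => hcomm a (hBW ha) b (hBW hb)) (fun a ha => hexp a (hBW ha))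
  have hf1 : f 1 = 0 := (hf0 1).2 (one_mem A)
  set φ : G →* ρ.range := ρ.rangeRestrict
  have hφ : Function.Surjective φ := ρ.rangeRestrict_surjective
  haveI : Finite ρ.range := Finite.of_surjective φ hφ
  have hH : Hyp π ρ.range.subtype := by
    refine ⟨h2, Subgroup.subtype_injective _, fun U hU => ?_, fun v hv => ?_, fun q hq hqr => ?_⟩
    · let S : Subgroup G :=
        { carrier := {g | ∃ h : g ∈ B, f ⟨g, h⟩ ∈ U}
          one_mem' := ⟨one_mem B, by
            rw [show (⟨1, one_mem B⟩ : B) = 1 from rfl, hf1]; exact U.zero_mem⟩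
          mul_mem' := by
            rintro a b ⟨ha, ha'⟩ ⟨hb, hb'⟩
            refine ⟨mul_mem ha hb, ?_⟩
            rw [show (⟨a * b, mul_mem ha hb⟩ : B) = ⟨a, ha⟩ * ⟨b, hb⟩ from rfl, hfadd]
            exact U.add_mem ha' hb'
          inv_mem' := by
            rintro a ⟨ha, ha'⟩
            refine ⟨inv_mem ha, ?_⟩
            rw [show (⟨a⁻¹, inv_mem ha⟩ : B) = ⟨a, ha⟩ from
              Subtype.ext (inv_eq_of_mul_eq_one_right (hexp a (hBW ha)))]
            exact ha' }
      have hAS : A ≤ S := fun a ha => ⟨hAB.le ha, by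
        rw [(hf0 ⟨a, hAB.le ha⟩).2 ha]; exact U.zero_mem⟩
      have hSn : S.Normal := ⟨fun a hx g => by
        obtain ⟨ha, ha'⟩ := hx
        refine ⟨hBn.conj_mem a ha g, ?_⟩
        rw [← hρ g ⟨a, ha⟩]
        exact hU ⟨ρ g, g, rfl⟩ _ ha'⟩
      have hSB : S ≤ B := fun a ha => by
        obtain ⟨ha', -⟩ := ha
        exact ha'
      by_cases hlt : S = B
      · refine Or.inr (Submodule.eq_top_iff'.2 fun v => ?_)
        obtain ⟨⟨b, hb⟩, rfl⟩ := hsurj v
        obtain ⟨h, hh⟩ := hlt.ge hb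
        exact hh
      · refine Or.inl ((Submodule.eq_bot_iff U).2 fun v hv => ?_)
        obtain ⟨⟨b, hb⟩, rfl⟩ := hsurj v
        exact (hf0 _).2 (hAmax ⟨hSn, lt_of_le_of_ne hSB hlt⟩ hAS ⟨hb, hv⟩)
    · obtain ⟨d, rfl⟩ := hsurj v
      intro r hr hrd
      refine hidx d (hBW d.2) r hr (hrd.trans ?_)
      rw [← Subgroup.index_comap_of_surjective _ hφ]
      refine Subgroup.index_dvd_of_le fun g hg => ?_
      show ρ g (f d) = f d
      rw [hρ]
      congr 1
      refine Subtype.ext ?_
      show g * d * g⁻¹ = d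
      rw [Subgroup.mem_centralizer_singleton_iff.1 hg, mul_inv_cancel_right]
    · set e := QuotientGroup.quotientKerEquivRange ρ
      have hq' : OddPrimeOrder (e.symm q) := by
        unfold OddPrimeOrder
        rw [MulEquiv.orderOf_eq]; exact hq
      have hqr' : IsConj (e.symm q) (e.symm q)⁻¹ := by
        rw [← map_inv]; exact e.symm.toMonoidHom.map_isConj hqr
      obtain ⟨y, hy, hyr⟩ := hlift ρ.ker hq' hqr'
      have hφy : φ y = q := by
        rw [show φ y = e (y : G ⧸ ρ.ker) from rfl, hy, MulEquiv.apply_symm_apply]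
      have hyy : y * y ≠ 1 := by
        intro h
        have h' : q ^ 2 = 1 := by rw [pow_two, ← hφy, ← map_mul, h, map_one]
        rcases (Nat.dvd_prime Nat.prime_two).1 (orderOf_dvd_of_pow_eq_one h') with h1 | h1
        · exact hq.1.ne_one h1
        · exact hq.2 h1
      intro r hr hrd
      refine hreal y hyr hyy r hr (hrd.trans ?_)
      rw [← Subgroup.index_comap_of_surjective _ hφ]
      refine Subgroup.index_dvd_of_le fun g hg => ?_
      rw [Subgroup.mem_comap]
      refine Subgroup.mem_centralizer_singleton_iff.2 ?_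
      rw [← hφy, ← map_mul, ← map_mul, Subgroup.mem_centralizer_singleton_iff.1 hg]
  obtain ⟨n₂, hn₂⟩ := (Group.isSolvable_def _).1 (hmod ρ.range V ρ.range.subtype hH)
  have hD : ∀ k ∈ derivedSeries G n₂, ρ k = 1 := by
    intro k hk
    have h := Subgroup.mem_map_of_mem φ hk
    rw [map_derivedSeries_eq hφ, hn₂, Subgroup.mem_bot] at h
    exact congrArg Subtype.val h
  refine ⟨max n₁ n₂ + 1, ?_⟩
  rw [derivedSeries_succ]
  refine Subgroup.commutator_le.2 fun k hk l hl => Subgroup.mem_centralizer_iff.2 fun b hb => ?_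
  have hcA : ∀ k ∈ derivedSeries G (max n₁ n₂), ∀ a ∈ A, k * a * k⁻¹ = a := fun k hk a ha => by
    rw [← Subgroup.mem_centralizer_iff.1 (hn₁ (derivedSeries_antitone G (le_max_left _ _) hk)) a ha,
      mul_inv_cancel_right]
  have hshift : ∀ k ∈ derivedSeries G (max n₁ n₂), ∀ x ∈ B, ∃ a ∈ A, k * x * k⁻¹ = x * a := by
    intro k hk x hx
    refine ⟨x⁻¹ * (k * x * k⁻¹), ?_, (mul_inv_cancel_left _ _).symm⟩
    have h : f ⟨k * x * k⁻¹, hBn.conj_mem x hx k⟩ = f ⟨x, hx⟩ := by
      rw [← hρ k ⟨x, hx⟩, hD k (derivedSeries_antitone G (le_max_right _ _) hk)]; rfl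
    have h0 : f ((⟨x, hx⟩ : B)⁻¹ * ⟨k * x * k⁻¹, hBn.conj_mem x hx k⟩) = 0 := by
      rw [hfadd, h, ← hfadd, inv_mul_cancel, hf1]
    exact (hf0 _).1 h0
  have hsame : ∀ x ∈ B, (k * l) * x * (k * l)⁻¹ = (l * k) * x * (l * k)⁻¹ := by
    intro x hx
    obtain ⟨a, ha, hka⟩ := hshift k hk x hx
    obtain ⟨a', ha', hla⟩ := hshift l hl x hx
    calc (k * l) * x * (k * l)⁻¹ = k * (l * x * l⁻¹) * k⁻¹ := by group
      _ = (k * x * k⁻¹) * (k * a' * k⁻¹) := by rw [hla]; group
      _ = x * a * a' := by rw [hka, hcA k hk a' ha']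
      _ = x * a' * a := by
        rw [mul_assoc, mul_assoc, hcomm a' (hBW (hAB.le ha')) a (hBW (hAB.le ha))]
      _ = (l * x * l⁻¹) * (l * a * l⁻¹) := by rw [hla, hcA l hl a ha]
      _ = l * (k * x * k⁻¹) * l⁻¹ := by rw [hka]; group
      _ = (l * k) * x * (l * k)⁻¹ := by group
  have h := hsame ((l * k)⁻¹ * b * (l * k)) (by
    simpa using hBn.conj_mem b hb (l * k)⁻¹)
  have h3 : ⁅k, l⁆ * b * ⁅k, l⁆⁻¹ = b := by
    calc ⁅k, l⁆ * b * ⁅k, l⁆⁻¹
        = (k * l) * ((l * k)⁻¹ * b * (l * k)) * (k * l)⁻¹ := by rw [commutatorElement_def]; group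
      _ = (l * k) * ((l * k)⁻¹ * b * (l * k)) * (l * k)⁻¹ := h
      _ = b := by group
  calc b * ⁅k, l⁆ = (⁅k, l⁆ * b * ⁅k, l⁆⁻¹) * ⁅k, l⁆ := by rw [h3]
    _ = ⁅k, l⁆ * b := by group

/-- Solubility from a normal series through a centraliser. -/
theorem isSolvable_of_derived_le {G : Type u} [Group G] (C : Subgroup G)
    (hC : Group.IsSolvable C) {n : ℕ} (h : derivedSeries G n ≤ C) : Group.IsSolvable G := by
  obtain ⟨m, hm⟩ := (Group.isSolvable_def _).1 hC
  refine (Group.isSolvable_def _).2 ⟨n + m, eq_bot_iff.2 ?_⟩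
  have key : ∀ j, derivedSeries G (n + j) ≤ (derivedSeries C j).map C.subtype := by
    intro j
    induction j with
    | zero =>
      rw [Nat.add_zero, derivedSeries_zero, ← MonoidHom.range_eq_map, Subgroup.range_subtype]
      exact h
    | succ j ih =>
      rw [← Nat.add_assoc, derivedSeries_succ, derivedSeries_succ, Subgroup.map_commutator]
      exact Subgroup.commutator_mono ih ih
  exact (key m).trans (by rw [hm, Subgroup.map_bot])

end Cfsg.Agent.H13.RealSizes
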