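import Cfsg.Agent.H13.RealSizes.Basic

/-!
# Linear groups over two elements with split class and orbit sizes: first consequences
-/

set_option autoImplicit false

namespace Cfsg.Agent.H13.RealSizes

open Cfsg.Agent.H45.Trans

universe u

variable {G : Type u} [Group G] [Finite G] {V : Type*} [AddCommGroup V] [Module (ZMod 2) V]
  {π : Set ℕ} {ρ : G →* (V ≃ₗ[ZMod 2] V)}

omit [Finite G] in
theorem coprime_of_piFree_of_piNum {a b : ℕ} (ha : PiFree π a) (hb : PiNum π b) :
    a.Coprime b :=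
  Nat.coprime_of_dvd fun q hq hqa hqb => ha q hq hqa (hb q hq hqb)

omit [Finite G] in
/-- The stabilisers of nonzero vectors have odd index. -/
theorem Hyp.odd_index_stab (H : Hyp π ρ) {v : V} (hv : v ≠ 0) : Odd (stab ρ v).index :=
  odd_of_piNum H.two (H.orb v hv)

/-- The centraliser of a real element of odd prime order is transitive on every orbit. -/
theorem Hyp.exists_mem_cent (H : Hyp π ρ) {y : G} (hy : OddPrimeOrder y) (hr : IsConj y y⁻¹)
    {v : V} (hv : v ≠ 0) (g : G) : ∃ c ∈ cent y, ρ c v = ρ g v := by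
  obtain ⟨c, hc, b, hb, rfl⟩ := exists_mul_of_coprime (cent y) (stab ρ v)
    (coprime_of_piFree_of_piNum (H.real y hy hr) (H.orb v hv)) g
  exact ⟨c, hc, by rw [map_mul, LinearEquiv.mul_apply, mem_stab.1 hb]⟩

/-- The centraliser of a real element of odd prime order is irreducible. -/
theorem Hyp.irreducible_cent (H : Hyp π ρ) {y : G} (hy : OddPrimeOrder y) (hr : IsConj y y⁻¹)
    (W : Submodule (ZMod 2) V) (hW : ∀ c ∈ cent y, ∀ w ∈ W, ρ c w ∈ W) : W = ⊥ ∨ W = ⊤ := by
  refine H.irr W fun g w hw => ?_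
  rcases eq_or_ne w 0 with rfl | hw0
  · simp
  · obtain ⟨c, hc, h⟩ := H.exists_mem_cent hy hr hw0 g
    exact h ▸ hW c hc w hw

/-- A real element of odd prime order fixes no nonzero vector. -/
theorem Hyp.semireg (H : Hyp π ρ) {y : G} (hy : OddPrimeOrder y) (hr : IsConj y y⁻¹) :
    Semireg ρ y := by
  rcases H.irreducible_cent hy hr (fixV ρ y)
    (fun c hc w hw => map_fixV_mem (mem_cent.1 hc).symm hw) with h | h
  · intro v hv
    simpa [h] using (mem_fixV.2 hv : v ∈ fixV ρ y)
  · refine absurd (H.inj ?_) hy.ne_one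
    rw [map_one]
    exact LinearEquiv.ext fun w => mem_fixV.1 (h ▸ Submodule.mem_top)

/-- Vector stabilisers are two-closed. -/
theorem Hyp.twoClosed_stab (H : Hyp π ρ) {v : V} (hv : v ≠ 0) : TwoClosed (stab ρ v) :=
  (twoClosed_subgroup _ fun _ hym hy _ _ h =>
    hv (H.semireg hy (isConj_inv_of_inverted h) v (mem_stab.1 hym))).1

/-- Vector stabilisers are solvable. -/
theorem Hyp.isSolvable_stab (H : Hyp π ρ) {v : V} (hv : v ≠ 0) :
    Group.IsSolvable (stab ρ v) :=
  (twoClosed_subgroup _ fun _ hym hy _ _ h =>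
    hv (H.semireg hy (isConj_inv_of_inverted h) v (mem_stab.1 hym))).2

/-- There is no nontrivial normal two-subgroup. -/
theorem Hyp.pCore_two_eq_bot [Finite V] (H : Hyp π ρ) : Cfsg.pCore 2 G = ⊥ := by
  classical
  haveI : Fact (Nat.Prime 2) := ⟨Nat.prime_two⟩
  rw [Subgroup.eq_bot_iff_forall]
  intro q hq
  rcases subsingleton_or_nontrivial V with hV | hV
  · exact H.inj (LinearEquiv.ext fun v => Subsingleton.elim _ _)
  set Q := Cfsg.pCore 2 G with hQ
  have hQn : Q.Normal := Cfsg.Agent.H19.pCore_normal 2 G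
  let W : Submodule (ZMod 2) V := ⨅ r : Q, fixV ρ (r : G)
  have hWmem : ∀ w, w ∈ W ↔ ∀ r ∈ Q, ρ r w = w := fun w => by
    simp [W, Submodule.mem_iInf, mem_fixV]
  have hinv : ∀ g : G, ∀ w ∈ W, ρ g w ∈ W := by
    intro g w hw
    rw [hWmem] at hw ⊢
    intro r hr
    have hr' : g⁻¹ * r * g ∈ Q := by simpa using hQn.conj_mem r hr g⁻¹
    calc ρ r (ρ g w) = ρ g (ρ (g⁻¹ * r * g) w) := by
          simp only [← LinearEquiv.mul_apply, ← map_mul]; group
      _ = ρ g w := by rw [hw _ hr']
  rcases H.irr W hinv with h | h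
  · exfalso
    letI : MulAction Q V := MulAction.compHom V (ρ.comp Q.subtype)
    have hfix : (0 : V) ∈ MulAction.fixedPoints Q V := fun r => (ρ (r : G)).map_zero
    have hdvd : 2 ∣ Nat.card V := by
      rw [card_V (p := 2) (V := V)]
      exact dvd_pow_self 2 (Module.finrank_pos).ne'
    obtain ⟨b, hb, hb0⟩ := (Cfsg.Agent.H19.pCore_isPGroup (G := G) 2
      ).exists_fixed_point_of_prime_dvd_card_of_fixed_point V hdvd hfix
    exact hb0 (by simpa [h, eq_comm] using (hWmem b).2 fun r hr => hb ⟨r, hr⟩)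
  · refine H.inj ?_
    rw [map_one]
    exact LinearEquiv.ext fun w => (hWmem w).1 (h ▸ Submodule.mem_top) q hq

/-- Each involution inverts an element of odd prime order. -/
theorem Hyp.exists_inverted [Finite V] (H : Hyp π ρ) {u : G} (hu : orderOf u = 2) :
    ∃ y : G, OddPrimeOrder y ∧ u * y * u⁻¹ = y⁻¹ :=
  exists_inverted_of_core H.pCore_two_eq_bot hu

end Cfsg.Agent.H13.RealSizes
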