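import Mathlib
import Cfsg.Agent.H13.RealSizes.Defs
import Cfsg.Agent.H28.ZStar

/-!
# Real class sizes split by a set of primes: every involution is isolated

Under the end hypotheses the fixed spaces of the involutions form a transitive family of subspaces
meeting pairwise in zero, and counting the translates of one of them shows that each is the fixed
space of a single involution.
-/

set_option autoImplicit false

namespace Cfsg.Agent.H13.RealSizes

open Cfsg.Agent.H45.Trans Cfsg.Agent.H28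

universe u

variable {G : Type u} [Group G] {V : Type*} [AddCommGroup V] [Module (ZMod 2) V]

section Aux

variable {ρ : G →* (V ≃ₗ[ZMod 2] V)}

private theorem act_mul (a b : G) (x : V) : ρ (a * b) x = ρ a (ρ b x) := by
  rw [map_mul, LinearEquiv.mul_apply]

private theorem vec_add_self (x : V) : x + x = 0 := by
  rw [← two_smul (ZMod 2) x, show (2 : ZMod 2) = 0 from by decide, zero_smul]

/-- The translate of a fixed space is the fixed space of the conjugate. -/
theorem map_fixV (g v : G) :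
    (fixV ρ v).map (ρ g).toLinearMap = fixV ρ (g * v * g⁻¹) := by
  ext x
  constructor
  · rintro ⟨a, ha, rfl⟩
    have ha' : ρ v a = a := mem_fixV.1 ha
    show ρ (g * v * g⁻¹) (ρ g a) = ρ g a
    rw [← act_mul, show g * v * g⁻¹ * g = g * v by group, act_mul, ha']
  · intro hx
    refine ⟨ρ g⁻¹ x, ?_, ?_⟩
    · show ρ v (ρ g⁻¹ x) = ρ g⁻¹ x
      have hx' : ρ (g * v * g⁻¹) x = x := mem_fixV.1 hx
      rw [← act_mul, show v * g⁻¹ = g⁻¹ * (g * v * g⁻¹) by group, act_mul, hx']
    · exact apply_inv_apply ρ g x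

theorem map_map_act (a b : G) (W : Submodule (ZMod 2) V) :
    (W.map (ρ b).toLinearMap).map (ρ a).toLinearMap = W.map (ρ (a * b)).toLinearMap := by
  rw [← Submodule.map_comp]
  congr 1
  exact LinearMap.ext fun x => (act_mul a b x).symm

/-- An involution fixes a nonzero vector of every nonzero invariant subspace. -/
theorem exists_fixed_of_invariant {v : G} (hv : orderOf v = 2) {W : Submodule (ZMod 2) V}
    (hW : ∀ w ∈ W, ρ v w ∈ W) (h0 : W ≠ ⊥) : ∃ w ∈ W, w ≠ 0 ∧ w ∈ fixV ρ v := by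
  obtain ⟨w, hwW, hw0⟩ := Submodule.exists_mem_ne_zero_of_ne_bot h0
  by_cases h : w + ρ v w = 0
  · refine ⟨w, hwW, hw0, ?_⟩
    show ρ v w = w
    calc ρ v w = (w + ρ v w) + w := by
          rw [add_comm (w + ρ v w) w, ← add_assoc, vec_add_self, zero_add]
      _ = w := by rw [h, zero_add]
  · refine ⟨w + ρ v w, add_mem hwW (hW w hwW), h, ?_⟩
    show ρ v (w + ρ v w) = w + ρ v w
    have h2 : v * v = 1 := by rw [← pow_two, ← hv, pow_orderOf_eq_one]
    rw [map_add, ← act_mul, h2, map_one]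
    exact add_comm _ _

/-- An inverting element inverts every power. -/
theorem conj_pow_inv {v w : G} (h : v * w * v⁻¹ = w⁻¹) (m : ℕ) :
    v * w ^ m * v⁻¹ = (w ^ m)⁻¹ := by
  rw [← conj_pow, h, inv_pow]

/-- A power of odd prime order of an element inverted by an involution, or an involution among
the powers. -/
theorem strongly_or_two [Finite G] {v w : G} (hv : orderOf v = 2) (h : v * w * v⁻¹ = w⁻¹)
    (hw : w ≠ 1) : (∃ m : ℕ, StronglyRealPrime (w ^ m)) ∨
      ∃ m : ℕ, orderOf (w ^ m) = 2 ∧ Commute v (w ^ m) := by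
  have hn : orderOf w ≠ 1 := fun e => hw (orderOf_eq_one_iff.1 e)
  obtain ⟨q, hq, hqd⟩ := Nat.exists_prime_and_dvd hn
  obtain ⟨m, hm⟩ := hqd
  have hm0 : m ≠ 0 := by
    rintro rfl
    rw [mul_zero] at hm
    exact (orderOf_pos w).ne' hm
  have ho : orderOf (w ^ m) = q := by
    rw [orderOf_pow' w hm0, hm, Nat.gcd_eq_right (dvd_mul_left m q),
      Nat.mul_div_cancel q (Nat.pos_of_ne_zero hm0)]
  by_cases h2 : q = 2
  · refine Or.inr ⟨m, by rw [ho, h2], ?_⟩
    have hi : (w ^ m)⁻¹ = w ^ m :=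
      inv_eq_of_mul_eq_one_right (by rw [← pow_two, ← h2, ← ho, pow_orderOf_eq_one])
    have h3 := conj_pow_inv h m
    rw [hi] at h3
    exact mul_inv_eq_iff_eq_mul.1 h3
  · exact Or.inl ⟨m, ⟨by rwa [ho], by rwa [ho]⟩, v, hv, conj_pow_inv h m⟩

variable [Finite G] (E : EndHyp ρ)
include E

theorem EndHyp.fixV_ne_bot [Nontrivial V] {v : G} (hv : orderOf v = 2) : fixV ρ v ≠ ⊥ := by
  intro h
  obtain ⟨w, -, hw0, hwf⟩ := exists_fixed_of_invariant (ρ := ρ) hv (W := ⊤)
    (fun _ _ => Submodule.mem_top) top_ne_bot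
  rw [h, Submodule.mem_bot] at hwf
  exact hw0 hwf

/-- Two involutions with a common nonzero fixed vector have the same fixed space. -/
theorem EndHyp.fixV_eq_of_common {u v : G} (hu : orderOf u = 2) (hv : orderOf v = 2) {x : V}
    (hx : x ≠ 0) (hxu : x ∈ fixV ρ u) (hxv : x ∈ fixV ρ v) : fixV ρ u = fixV ρ v := by
  by_cases he : u = v
  · rw [he]
  have hu2 : u * u = 1 := by rw [← pow_two, ← hu, pow_orderOf_eq_one]
  have hv2 : v * v = 1 := by rw [← pow_two, ← hv, pow_orderOf_eq_one]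
  have hui : u⁻¹ = u := inv_eq_of_mul_eq_one_right hu2
  have hvi : v⁻¹ = v := inv_eq_of_mul_eq_one_right hv2
  have hinv : u * (u * v) * u⁻¹ = (u * v)⁻¹ := by
    rw [mul_inv_rev, hui, hvi, ← mul_assoc, hu2, one_mul]
  have hne : u * v ≠ 1 := by
    intro h
    apply he
    calc u = u * (v * v) := by rw [hv2, mul_one]
      _ = v := by rw [← mul_assoc, h, one_mul]
  have hfix : ∀ m : ℕ, ρ ((u * v) ^ m) x = x := by
    intro m
    induction m with
    | zero => simp
    | succ m ih =>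
      rw [pow_succ, act_mul, act_mul u v, mem_fixV.1 hxv, mem_fixV.1 hxu, ih]
  rcases strongly_or_two hu hinv hne with ⟨m, hm⟩ | ⟨m, hm2, hcm⟩
  · exact absurd (E.semireg _ hm x (hfix m)) hx
  · have hinv' : v * (u * v) * v⁻¹ = (u * v)⁻¹ := by
      rw [mul_inv_rev, hui, hvi, mul_assoc v (u * v) v, mul_assoc u v v, hv2, mul_one]
    have hcv : Commute v ((u * v) ^ m) := by
      have hi : ((u * v) ^ m)⁻¹ = (u * v) ^ m :=
        inv_eq_of_mul_eq_one_right (by rw [← pow_two, ← hm2, pow_orderOf_eq_one])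
      have h3 := conj_pow_inv hinv' m
      rw [hi] at h3
      exact mul_inv_eq_iff_eq_mul.1 h3
    rw [E.fix_eq _ _ hu hm2 hcm, E.fix_eq _ _ hv hm2 hcv]

/-- The conjugates of an involution have all the fixed spaces. -/
theorem EndHyp.exists_map_eq [Nontrivial V] [Finite V] {u v : G} (hu : orderOf u = 2)
    (hv : orderOf v = 2) : ∃ g : G, (fixV ρ u).map (ρ g).toLinearMap = fixV ρ v := by
  classical
  obtain ⟨w, hw, hw0⟩ := Submodule.exists_mem_ne_zero_of_ne_bot (E.fixV_ne_bot hu)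
  letI : MulAction G V := MulAction.compHom V ρ
  have hodd : Odd (Nat.card (MulAction.orbit G w)) := by
    have hs : MulAction.stabilizer G w = stab ρ w := by
      ext g
      rfl
    rw [Nat.card_congr (MulAction.orbitEquivQuotientStabilizer G w), ← Subgroup.index_eq_card, hs]
    exact E.odd w hw0
  have hp : IsPGroup 2 (Subgroup.zpowers v) :=
    IsPGroup.of_card (n := 1) (by rw [Nat.card_zpowers, hv, pow_one])
  letI : MulAction (Subgroup.zpowers v) (MulAction.orbit G w) :=
    MulAction.compHom _ (Subgroup.zpowers v).subtype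
  have : Fact (Nat.Prime 2) := ⟨Nat.prime_two⟩
  obtain ⟨⟨x, hx⟩, hxfix⟩ := hp.nonempty_fixed_point_of_prime_not_dvd_card
    (α := MulAction.orbit G w) hodd.not_two_dvd_nat
  obtain ⟨g, hg⟩ := hx
  have hvx : ρ v x = x := congrArg Subtype.val (hxfix ⟨v, Subgroup.mem_zpowers v⟩)
  have hgx : ρ g w = x := hg
  refine ⟨g, ?_⟩
  rw [map_fixV]
  refine E.fixV_eq_of_common (by rw [orderOf_conj_eq, hu]) hv (x := x) ?_ ?_ (mem_fixV.2 hvx)
  · rw [← hgx]
    exact fun h => hw0 ((ρ g).map_eq_zero_iff.1 h)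
  · rw [← map_fixV, ← hgx]
    exact ⟨w, hw, rfl⟩

end Aux

variable [Finite G] [Finite V] [Nontrivial V] {ρ : G →* (V ≃ₗ[ZMod 2] V)}

/-- Involutions mapping a fixed space to the same translate are equal, outside its stabiliser. -/
theorem EndHyp.eq_of_map_eq (E : EndHyp ρ) {u v v' : G} (hu : orderOf u = 2) (hv : orderOf v = 2)
    (hv' : orderOf v' = 2) (hne : fixV ρ v ≠ fixV ρ u)
    (h : (fixV ρ u).map (ρ v).toLinearMap = (fixV ρ u).map (ρ v').toLinearMap) : v = v' := by
  by_contra hvv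
  set P : Submodule (ZMod 2) V := fixV ρ u with hP
  have hv2 : v * v = 1 := by rw [← pow_two, ← hv, pow_orderOf_eq_one]
  have hv'2 : v' * v' = 1 := by rw [← pow_two, ← hv', pow_orderOf_eq_one]
  have hvi : v⁻¹ = v := inv_eq_of_mul_eq_one_right hv2
  have hv'i : v'⁻¹ = v' := inv_eq_of_mul_eq_one_right hv'2
  have hwP : P.map (ρ (v' * v)).toLinearMap = P := by
    rw [← map_map_act, h, map_map_act, hv'2, map_one]
    exact Submodule.map_id P
  have hpow : ∀ m : ℕ, P.map (ρ ((v' * v) ^ m)).toLinearMap = P := by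
    intro m
    induction m with
    | zero =>
      rw [pow_zero, map_one]
      exact Submodule.map_id P
    | succ m ih => rw [pow_succ, ← map_map_act, hwP, ih]
  have hinv : v * (v' * v) * v⁻¹ = (v' * v)⁻¹ := by
    rw [mul_inv_rev, hvi, hv'i, mul_assoc v (v' * v) v, mul_assoc v' v v, hv2, mul_one]
  have hne1 : v' * v ≠ 1 := by
    intro e
    apply hvv
    calc v = v' * v' * v := by rw [hv'2, one_mul]
      _ = v' := by rw [mul_assoc, e, mul_one]
  rcases strongly_or_two hv hinv hne1 with ⟨m, hm⟩ | ⟨m, hm2, hcm⟩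
  · set y : G := (v' * v) ^ m with hy
    obtain ⟨w₀, hw₀, hw₀0⟩ := Submodule.exists_mem_ne_zero_of_ne_bot (E.fixV_ne_bot hu)
    obtain ⟨g, hg⟩ := E.exists_map_eq hu hv
    obtain ⟨c, hc, hcg⟩ := E.trans y hm w₀ hw₀0 g
    have hcP : P.map (ρ c).toLinearMap = fixV ρ v := by
      rw [hP, map_fixV]
      refine E.fixV_eq_of_common (by rw [orderOf_conj_eq, hu]) hv (x := ρ c w₀)
        (fun e => hw₀0 ((ρ c).map_eq_zero_iff.1 e)) ?_ ?_
      · rw [← map_fixV]
        exact ⟨w₀, hw₀, rfl⟩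
      · rw [hcg, ← hg]
        exact ⟨w₀, hw₀, rfl⟩
    have hcy : y * c = c * y := (Subgroup.mem_centralizer_singleton_iff.1 hc).symm
    have hX : (fixV ρ v).map (ρ y).toLinearMap = fixV ρ v := by
      rw [← hcP, map_map_act, hcy, ← map_map_act, hy, hpow m]
    obtain ⟨x, hx, hx0⟩ := Submodule.exists_mem_ne_zero_of_ne_bot (E.fixV_ne_bot hv)
    have hyx : ρ v (ρ y x) = ρ y x := mem_fixV.1 (hX.le ⟨x, hx, rfl⟩)
    have hvy : v * y = y⁻¹ * v := mul_inv_eq_iff_eq_mul.1 (conj_pow_inv hinv m)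
    rw [← LinearEquiv.mul_apply, ← map_mul, hvy, map_mul, LinearEquiv.mul_apply,
      mem_fixV.1 hx] at hyx
    have hy2 : ρ (y ^ 2) x = x := by
      rw [pow_two, map_mul, LinearEquiv.mul_apply, ← hyx, apply_inv_apply]
    have hall : ∀ k : ℕ, ρ ((y ^ 2) ^ k) x = x := by
      intro k
      induction k with
      | zero => simp
      | succ k ih => rw [pow_succ, map_mul, LinearEquiv.mul_apply, hy2, ih]
    obtain ⟨k, hk⟩ := hm.1.1.odd_of_ne_two hm.1.2
    have hyk : (y ^ 2) ^ (k + 1) = y := by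
      rw [← pow_mul, show 2 * (k + 1) = orderOf y + 1 by omega, pow_succ, pow_orderOf_eq_one,
        one_mul]
    exact hx0 (E.semireg y hm x (by rw [← hyk]; exact hall _))
  · have hinvar : ∀ a ∈ P, ρ ((v' * v) ^ m) a ∈ P := fun a ha => (hpow m).le ⟨a, ha, rfl⟩
    obtain ⟨a, haP, ha0, haf⟩ := exists_fixed_of_invariant hm2 hinvar (E.fixV_ne_bot hu)
    exact hne (((E.fix_eq _ _ hv hm2 hcm)).trans (E.fixV_eq_of_common hm2 hu ha0 haf haP))

/-- Involutions are determined by their fixed spaces. -/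
theorem EndHyp.eq_of_fixV_eq (E : EndHyp ρ) {u v : G} (hu : orderOf u = 2) (hv : orderOf v = 2)
    (h : fixV ρ v = fixV ρ u) : v = u := by
  classical
  letI : Fintype G := Fintype.ofFinite G
  let I := {i : G // orderOf i = 2}
  let f : I → Submodule (ZMod 2) V := fun i => fixV ρ i.1
  let T := Set.range f
  let P₀ : T := ⟨fixV ρ u, ⟨⟨u, hu⟩, rfl⟩⟩
  let ft : I → T := fun i => ⟨f i, ⟨i, rfl⟩⟩
  have hfib : ∀ X : T, Nat.card {i : I // ft i = X} = Nat.card {i : I // ft i = P₀} := by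
    intro X
    obtain ⟨⟨a, ha⟩, hX⟩ := X.2
    obtain ⟨g, hg⟩ := E.exists_map_eq hu ha
    refine (Nat.card_congr (Equiv.subtypeEquiv
      ({ toFun := fun i => ⟨g * i.1 * g⁻¹, by rw [orderOf_conj_eq, i.2]⟩
         invFun := fun i => ⟨g⁻¹ * i.1 * g, by
          rw [show g⁻¹ * i.1 * g = g⁻¹ * i.1 * g⁻¹⁻¹ by rw [inv_inv], orderOf_conj_eq, i.2]⟩
         left_inv := fun i => Subtype.ext (by show g⁻¹ * (g * i.1 * g⁻¹) * g = i.1; group)
         right_inv := fun i => Subtype.ext (by
          show g * (g⁻¹ * i.1 * g) * g⁻¹ = i.1; group) } : I ≃ I) ?_)).symm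
    intro i
    constructor
    · intro hi
      apply Subtype.ext
      show fixV ρ (g * i.1 * g⁻¹) = X.1
      rw [← map_fixV, show fixV ρ i.1 = fixV ρ u from congrArg Subtype.val hi, hg]
      exact hX
    · intro hi
      apply Subtype.ext
      show fixV ρ i.1 = fixV ρ u
      apply Submodule.map_injective_of_injective (f := (ρ g).toLinearMap) (ρ g).injective
      rw [map_fixV, hg]
      exact (congrArg Subtype.val hi).trans hX.symm
  set e := Nat.card {i : I // ft i = P₀} with he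
  have htot : Nat.card I = Nat.card T * e := by
    rw [← Nat.card_congr (Equiv.sigmaFiberEquiv ft), Nat.card_sigma,
      Finset.sum_congr rfl (fun X _ => hfib X)]
    simp [Nat.card_eq_fintype_card]
  let out : {i : I // ¬ ft i = P₀} → {X : T // ¬ X = P₀} := fun i =>
    ⟨⟨(fixV ρ u).map (ρ i.1.1).toLinearMap, ⟨⟨i.1.1 * u * i.1.1⁻¹,
      by rw [orderOf_conj_eq, hu]⟩, (map_fixV i.1.1 u).symm⟩⟩, fun hc => i.2 <| Subtype.ext (by
        have hc' : (fixV ρ u).map (ρ i.1.1).toLinearMap = fixV ρ u := congrArg Subtype.val hc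
        obtain ⟨a, haP, ha0, haf⟩ := exists_fixed_of_invariant i.1.2
          (fun a ha => hc'.le ⟨a, ha, rfl⟩) (E.fixV_ne_bot hu)
        exact E.fixV_eq_of_common i.1.2 hu ha0 haf haP)⟩
  have hinj : Function.Injective out := fun i j hij => Subtype.ext (Subtype.ext
    (E.eq_of_map_eq hu i.1.2 j.1.2 (fun hc => i.2 (Subtype.ext hc))
      (congrArg (fun z => z.1.1) hij)))
  have hle := Nat.card_le_card_of_injective out hinj
  have hI : Nat.card I = e + Nat.card {i : I // ¬ ft i = P₀} := by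
    rw [he, ← Nat.card_sum]
    exact (Nat.card_congr (Equiv.sumCompl _)).symm
  have hT : Nat.card T = 1 + Nat.card {X : T // ¬ X = P₀} := by
    rw [← Nat.card_congr (Equiv.sumCompl fun X : T => X = P₀), Nat.card_sum, Nat.card_unique]
  have hr : 0 < Nat.card {X : T // ¬ X = P₀} := by
    rw [Nat.card_pos_iff]
    refine ⟨?_, inferInstance⟩
    by_contra hemp
    rw [not_nonempty_iff] at hemp
    have hconst : ∀ X : T, X = P₀ := fun X => by
      by_contra hX
      exact hemp.false ⟨X, hX⟩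
    have hinvar : ∀ g : G, ∀ w ∈ fixV ρ u, ρ g w ∈ fixV ρ u := by
      intro g w hw
      have h1 : fixV ρ (g * u * g⁻¹) = fixV ρ u :=
        congrArg Subtype.val (hconst (ft ⟨g * u * g⁻¹, by rw [orderOf_conj_eq, hu]⟩))
      rw [← h1, ← map_fixV]
      exact ⟨w, hw, rfl⟩
    rcases E.irr _ hinvar with hbot | htop
    · exact E.fixV_ne_bot hu hbot
    · have : ρ u = 1 := LinearEquiv.ext fun w => mem_fixV.1 (htop ▸ Submodule.mem_top)
      rw [← map_one ρ] at this
      rw [E.inj this, orderOf_one] at hu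
      omega
  have he1 : e ≤ 1 := by
    rw [htot, hT] at hI
    nlinarith [hI, hle, hr]
  rw [he] at he1
  have : Subsingleton {i : I // ft i = P₀} := Finite.card_le_one_iff_subsingleton.1 he1
  have := Subsingleton.elim (⟨⟨v, hv⟩, Subtype.ext h⟩ : {i : I // ft i = P₀})
    ⟨⟨u, hu⟩, rfl⟩
  exact congrArg (fun z => z.1.1) this

/-- Every involution is isolated. -/
theorem EndHyp.isolated (E : EndHyp ρ) {u : G} (hu : orderOf u = 2) :
    Cfsg.Agent.H28.IsIsolatedInvolution u :=
  ⟨hu, fun g hg => E.eq_of_fixV_eq hu (by rw [orderOf_conj_eq, hu])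
    (E.fix_eq _ _ hu (by rw [orderOf_conj_eq, hu]) hg).symm⟩

end Cfsg.Agent.H13.RealSizes
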