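import Cfsg.Agent.H13.RealSizes.HallDefs
import Cfsg.Agent.H13.RealSizes.End
import Cfsg.Agent.H33.NilpotentHall
import Cfsg.Agent.H19.Fitting
import Cfsg.Agent.H28.BaerSuzuki
import Cfsg.Agent.H28.Isolated
import Cfsg.Agent.H25.PF14.Solvable

/-!
# Real class sizes split by a set of primes: a semiregular Hall subgroup forces solvability

A linear group with a cyclic semiregular Hall subgroup `A` containing all real elements of odd
prime order up to conjugation is solvable: in a minimal counterexample every proper subgroup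
containing `A` normalises it, so every involution is isolated, and the `Z*`-theorem reduces the
group to a central involution, which cannot exist.
-/

set_option autoImplicit false

namespace Cfsg.Agent.H13.RealSizes

open Cfsg.Agent.H45.Trans

universe u

namespace Generic

variable {G : Type u} [Group G] {V : Type*} [AddCommGroup V] [Module (ZMod 2) V]
  {π : Set ℕ} {ρ : G →* (V ≃ₗ[ZMod 2] V)} {A : Subgroup G} {f : G}

/-- The data passed down to the subgroups containing `A`. -/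
structure Cfg (π : Set ℕ) (ρ : G →* (V ≃ₗ[ZMod 2] V)) (A : Subgroup G) (f : G) : Prop where
  two : 2 ∉ π
  inj : Function.Injective ρ
  data : HallData π ρ A f
  ht : ∀ v : V, v ≠ 0 → ∀ g : G, ∃ a ∈ A, ρ a v = ρ g v

private theorem act_mul (ρ : G →* (V ≃ₗ[ZMod 2] V)) (a b : G) (x : V) :
    ρ (a * b) x = ρ a (ρ b x) := by
  rw [map_mul, LinearEquiv.mul_apply]

theorem piNum_of_dvd {π : Set ℕ} {m n : ℕ} (h : PiNum π n) (hd : m ∣ n) : PiNum π m :=
  fun q hq hqm => h q hq (hqm.trans hd)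

theorem piNum_prime {π : Set ℕ} {p : ℕ} (hp : p.Prime) (h : p ∈ π) : PiNum π p :=
  fun q hq hqp => by rwa [(Nat.prime_dvd_prime_iff_eq hq hp).1 hqp]

/-- Two involutions generate a `2`-group or invert an element of odd prime order of their
product. -/
theorem two_power_or_real [Finite G] {u v : G} (hu : orderOf u = 2) (hv : orderOf v = 2) :
    (∃ a : ℕ, orderOf (u * v) ∣ 2 ^ a) ∨
      ∃ y : G, StronglyRealPrime y ∧ u * y * u⁻¹ = y⁻¹ ∧ y ∈ Subgroup.zpowers (u * v) := by
  by_cases h : ∀ {d : ℕ}, d.Prime → d ∣ orderOf (u * v) → d = 2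
  · exact Or.inl ⟨_, dvd_of_eq (Nat.eq_prime_pow_of_unique_prime_dvd (orderOf_pos _).ne' h)⟩
  · simp only [not_forall] at h
    obtain ⟨q, hq, hqd, hq2⟩ := h
    refine Or.inr ?_
    have hu2 : u * u = 1 := by rw [← pow_two, ← hu, pow_orderOf_eq_one]
    have hv2 : v * v = 1 := by rw [← pow_two, ← hv, pow_orderOf_eq_one]
    have hui : u⁻¹ = u := inv_eq_of_mul_eq_one_right hu2
    have hvi : v⁻¹ = v := inv_eq_of_mul_eq_one_right hv2
    have hinv : u * (u * v) * u⁻¹ = (u * v)⁻¹ := by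
      rw [mul_inv_rev, hui, hvi, ← mul_assoc, hu2, one_mul]
    set n := orderOf (u * v) / q
    have ho : orderOf ((u * v) ^ n) = q := orderOf_pow_orderOf_div (orderOf_pos _).ne' hqd
    exact ⟨(u * v) ^ n, ⟨⟨by rwa [ho], by rwa [ho]⟩, u, hu, conj_pow_inv hinv n⟩,
      conj_pow_inv hinv n, ⟨n, zpow_natCast _ _⟩⟩

theorem Cfg.f_mem (C : Cfg π ρ A f) : f ∈ A := by
  rw [C.data.cent_eq, Subgroup.mem_centralizer_singleton_iff]

theorem Cfg.card_odd [Finite G] (C : Cfg π ρ A f) : Odd (Nat.card A) := by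
  rw [← Nat.not_even_iff_odd, even_iff_two_dvd]
  exact fun h => C.two (C.data.card 2 Nat.prime_two h)

theorem Cfg.exists_gen (C : Cfg π ρ A f) : ∃ c : G, Subgroup.zpowers c = A :=
  (Subgroup.isCyclic_iff_exists_zpowers_eq_top A).1 C.data.cyclic

theorem Cfg.comm (C : Cfg π ρ A f) {a b : G} (ha : a ∈ A) (hb : b ∈ A) : Commute a b := by
  obtain ⟨c, hc⟩ := C.exists_gen
  rw [← hc] at ha hb
  obtain ⟨i, rfl⟩ := ha
  obtain ⟨j, rfl⟩ := hb
  exact (Commute.refl c).zpow_zpow i j

theorem Cfg.not_invol_mem [Finite G] (C : Cfg π ρ A f) {z : G} (hz : orderOf z = 2) : z ∉ A :=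
  fun h => C.card_odd.not_two_dvd_nat (hz ▸ Subgroup.orderOf_dvd_natCard A h)

theorem Cfg.index_stab (C : Cfg π ρ A f) {v : V} (hv : v ≠ 0) :
    (stab ρ v).index = Nat.card A := by
  rw [Subgroup.index_eq_card]
  refine (Nat.card_congr (Equiv.ofBijective
    (fun a : A => (QuotientGroup.mk (a : G) : G ⧸ stab ρ v)) ⟨?_, ?_⟩)).symm
  · intro a b h
    have h1 : (a : G)⁻¹ * b ∈ stab ρ v := QuotientGroup.eq.1 h
    by_contra hne
    refine hv (C.data.semireg _ (A.mul_mem (A.inv_mem a.2) b.2) ?_ v h1)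
    exact fun e => hne (Subtype.ext (inv_mul_eq_one.1 e))
  · intro x
    induction x using QuotientGroup.induction_on with
    | H g =>
      obtain ⟨a, ha, hag⟩ := C.ht v hv g
      refine ⟨⟨a, ha⟩, QuotientGroup.eq.2 ?_⟩
      show ρ (a⁻¹ * g) v = v
      rw [act_mul, ← hag, ← act_mul, inv_mul_cancel, map_one]
      rfl

/-- A `q`-subgroup, `q ∉ π`, fixes a vector in each orbit. -/
theorem Cfg.exists_fixed [Finite G] (C : Cfg π ρ A f) {q : ℕ} [Fact q.Prime] {N : Subgroup G}
    (hN : IsPGroup q N) (hq : q ∉ π) {w : V} (hw : w ≠ 0) :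
    ∃ g : G, ∀ n ∈ N, ρ n (ρ g w) = ρ g w := by
  have hnd : ¬ q ∣ Nat.card (G ⧸ stab ρ w) := by
    rw [← Subgroup.index_eq_card, C.index_stab hw]
    exact fun h => hq (C.data.card q Fact.out h)
  obtain ⟨x, hx⟩ := hN.nonempty_fixed_point_of_prime_not_dvd_card (G ⧸ stab ρ w) hnd
  induction x using QuotientGroup.induction_on with
  | H g =>
    refine ⟨g, fun n hn => ?_⟩
    have h1 : (QuotientGroup.mk (n * g) : G ⧸ stab ρ w) = QuotientGroup.mk g := hx ⟨n, hn⟩
    have h2 : ρ ((n * g)⁻¹ * g) w = w := QuotientGroup.eq.1 h1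
    calc ρ n (ρ g w) = ρ (n * g) (ρ ((n * g)⁻¹ * g) w) := by rw [h2, act_mul]
      _ = ρ g w := by rw [← act_mul, mul_inv_cancel_left]

theorem Cfg.restrict (C : Cfg π ρ A f) {Y : Subgroup G} (hAY : A ≤ Y) :
    Cfg π (ρ.comp Y.subtype) (A.subgroupOf Y) (⟨f, hAY C.f_mem⟩ : Y) where
  two := C.two
  inj := C.inj.comp Subtype.val_injective
  data :=
    { cent_eq := by
        ext y
        have hiff : (y : G) ∈ A ↔ (y : G) ∈ cent f := iff_of_eq (by rw [C.data.cent_eq])
        rw [Subgroup.mem_subgroupOf, hiff, Subgroup.mem_centralizer_singleton_iff,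
          Subgroup.mem_centralizer_singleton_iff, Subtype.ext_iff]
        rfl
      prime := by rw [Subgroup.orderOf_mk]; exact C.data.prime
      cyclic :=
        have := C.data.cyclic
        (Subgroup.subgroupOfEquivOfLe hAY).isCyclic.2 inferInstance
      card := by
        rw [Nat.card_congr (Subgroup.subgroupOfEquivOfLe hAY).toEquiv]
        exact C.data.card
      index := fun q hq hd =>
        C.data.index q hq (hd.trans (Subgroup.relIndex_dvd_index_of_le hAY))
      semireg := fun a ha ha1 => C.data.semireg (a : G) ha (fun e => ha1 (Subtype.ext e))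
      irreducible := fun W hW => C.data.irreducible W hW
      real_prime := fun y hy hr => by
        rw [← Subgroup.orderOf_coe]
        refine C.data.real_prime (y : G) ?_ ?_
        · simpa only [OddPrimeOrder, Subgroup.orderOf_coe] using hy
        · exact MonoidHom.map_isConj Y.subtype hr }
  ht := fun v hv g => by
    obtain ⟨a, ha, hag⟩ := C.ht v hv (g : G)
    exact ⟨⟨a, hAY ha⟩, ha, hag⟩

/-- Wielandt: a `π`-subgroup has a conjugate in `A`. -/
theorem Cfg.exists_conj [Finite G] (C : Cfg π ρ A f) {K : Subgroup G}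
    (hK : PiNum π (Nat.card K)) : ∃ x : G, ∀ k ∈ K, x⁻¹ * k * x ∈ A := by
  have := C.data.cyclic
  have hnil : Group.IsNilpotent A :=
    @CommGroup.isNilpotent A (open scoped IsMulCommutative in inferInstance)
  have hcop : (Nat.card A).Coprime A.index :=
    Nat.coprime_of_dvd fun q hq h1 h2 => C.data.index q hq h2 (C.data.card q hq h1)
  have hpr : ∀ p : ℕ, p.Prime → p ∣ Nat.card K → p ∣ Nat.card A := by
    intro p hp hd
    have h1 : p ∣ Nat.card A * A.index := by
      rw [A.card_mul_index]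
      exact hd.trans K.card_subgroup_dvd_card
    exact (hp.dvd_mul.1 h1).resolve_right fun h => C.data.index p hp h (hK p hp hd)
  obtain ⟨x, hx⟩ := Cfsg.Agent.H33.exists_conj_of_nilpotent_hall (Nat.card K) A K hnil hcop hpr rfl
  exact ⟨x, fun k hk => H19.mem_conj_smul.1 (hx hk)⟩

theorem Cfg.exists_conj_elem [Finite G] (C : Cfg π ρ A f) {y : G} (hy : PiNum π (orderOf y)) :
    ∃ x : G, x⁻¹ * y * x ∈ A := by
  obtain ⟨x, hx⟩ := C.exists_conj (K := Subgroup.zpowers y) (by rwa [Nat.card_zpowers])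
  exact ⟨x, hx y (Subgroup.mem_zpowers y)⟩

/-- `O_q(G) = 1` for a prime `q` outside `π`. -/
theorem Cfg.pCore_eq_bot [Finite G] [Nontrivial V] (C : Cfg π ρ A f) {q : ℕ} [Fact q.Prime]
    (hq : q ∉ π) : Cfsg.pCore q G = ⊥ := by
  set N := Cfsg.pCore q G
  have hn : N.Normal := H19.pCore_normal q G
  obtain ⟨w, hw⟩ := exists_ne (0 : V)
  obtain ⟨g, hg⟩ := C.exists_fixed (N := N) (H19.pCore_isPGroup q) hq hw
  let W : Submodule (ZMod 2) V := ⨅ n ∈ N, fixV ρ n
  have hmem : ∀ x : V, x ∈ W ↔ ∀ n ∈ N, ρ n x = x := fun x => by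
    simp only [W, Submodule.mem_iInf, mem_fixV]
  rcases C.data.irreducible W (fun x hx => by
    rw [hmem] at hx ⊢
    intro n hnN
    calc ρ n (ρ f x) = ρ f (ρ (f⁻¹ * n * f) x) := by
          rw [← act_mul, ← act_mul]
          congr 2
          group
      _ = ρ f x := by rw [hx _ (hn.conj_mem' n hnN f)]) with hbot | htop
  · exfalso
    have : ρ g w ∈ W := (hmem _).2 hg
    rw [hbot, Submodule.mem_bot] at this
    exact hw ((ρ g).map_eq_zero_iff.1 this)
  · refine (Subgroup.eq_bot_iff_forall N).2 fun n hnN => C.inj ?_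
    rw [map_one]
    exact LinearEquiv.ext fun x => (hmem x).1 (htop ▸ Submodule.mem_top) n hnN

theorem Cfg.fitting_le [Finite G] [Nontrivial V] (C : Cfg π ρ A f) :
    Cfsg.fittingSubgroup G ≤ A := by
  rw [H19.fitting_eq_iSup_pCore]
  refine iSup_le fun q => ?_
  have : Fact (q : ℕ).Prime := ⟨q.2⟩
  by_cases hq : (q : ℕ) ∈ π
  · obtain ⟨k, hk⟩ := IsPGroup.iff_card.1 (H19.pCore_isPGroup (q : ℕ) (G := G))
    have hpi : PiNum π (Nat.card (Cfsg.pCore (q : ℕ) G)) := by
      intro r hr hd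
      rw [hk] at hd
      rwa [(Nat.prime_dvd_prime_iff_eq hr q.2).1 (hr.dvd_of_dvd_pow hd)]
    obtain ⟨x, hx⟩ := C.exists_conj hpi
    intro k hk
    have h1 := hx _ ((H19.pCore_normal (q : ℕ) G).conj_mem k hk x)
    rwa [show x⁻¹ * (x * k * x⁻¹) * x = k by group] at h1
  · rw [C.pCore_eq_bot hq]
    exact bot_le

theorem Cfg.normal_of_solvable [Finite G] [Nontrivial V] [Group.IsSolvable G]
    (C : Cfg π ρ A f) : A.Normal := by
  have h1 : A ≤ Subgroup.centralizer (Cfsg.fittingSubgroup G : Set G) := fun a ha =>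
    Subgroup.mem_centralizer_iff.2 fun b hb => (C.comm (C.fitting_le hb) ha).eq
  have h2 : A = Cfsg.fittingSubgroup G :=
    le_antisymm (h1.trans H19.centralizer_fitting_le) C.fitting_le
  rw [h2]
  exact H19.fitting_normal G

/-- A solvable subgroup containing `A` normalises it and has no further `π`-elements. -/
theorem Cfg.local_normal [Finite G] [Nontrivial V] (C : Cfg π ρ A f) {Y : Subgroup G}
    (hAY : A ≤ Y) [Group.IsSolvable Y] :
    (∀ b ∈ Y, ∀ a ∈ A, b * a * b⁻¹ ∈ A) ∧ (∀ b ∈ Y, PiNum π (orderOf b) → b ∈ A) := by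
  have hn := (C.restrict hAY).normal_of_solvable
  refine ⟨fun b hb a ha => hn.conj_mem ⟨a, hAY ha⟩ ha ⟨b, hb⟩, fun b hb hpi => ?_⟩
  obtain ⟨x, hx⟩ := (C.restrict hAY).exists_conj_elem (y := (⟨b, hb⟩ : Y))
    (by rwa [Subgroup.orderOf_mk])
  have h1 := hn.conj_mem _ hx x
  rw [show x * (x⁻¹ * (⟨b, hb⟩ : Y) * x) * x⁻¹ = ⟨b, hb⟩ by group] at h1
  exact h1

/-- An involution normalising `A` inverts `f`. -/
theorem Cfg.invol_inverts [Finite G] (C : Cfg π ρ A f) {z : G} (hz : orderOf z = 2)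
    (hzA : ∀ a ∈ A, z * a * z⁻¹ ∈ A) : z * f * z⁻¹ = f⁻¹ := by
  obtain ⟨c, hc⟩ := C.exists_gen
  have hfc : f ∈ Subgroup.zpowers c := hc.symm ▸ C.f_mem
  obtain ⟨i, hi⟩ := hfc
  have hzc : z * c * z⁻¹ ∈ Subgroup.zpowers c :=
    hc.symm ▸ hzA c (hc ▸ Subgroup.mem_zpowers c)
  obtain ⟨k, hk⟩ := hzc
  simp only at hi hk
  have hzf : z * f * z⁻¹ = f ^ k := by
    rw [← hi, ← conj_zpow, ← hk, ← zpow_mul, ← zpow_mul, mul_comm]
  have hz2 : z * z = 1 := by rw [← pow_two, ← hz, pow_orderOf_eq_one]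
  have hzi : z⁻¹ = z := inv_eq_of_mul_eq_one_right hz2
  set g := z * f * z⁻¹ * f with hg
  have hgz : z * g * z⁻¹ = g := by
    have hcm : Commute f (z * f * z⁻¹) := by rw [hzf]; exact (Commute.refl f).zpow_right k
    calc z * g * z⁻¹ = (z * z) * f * (z⁻¹ * (f * z⁻¹)) := by rw [hg]; group
      _ = f * (z * f * z⁻¹) := by rw [hz2, one_mul, hzi]; group
      _ = g := hcm.eq
  by_contra hne
  have hg1 : g ≠ 1 := fun e => hne (eq_inv_of_mul_eq_one_left e)
  have hgf : g ∈ Subgroup.zpowers f := by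
    rw [hg, hzf]
    exact Subgroup.mul_mem _ (Subgroup.zpow_mem _ (Subgroup.mem_zpowers f) k)
      (Subgroup.mem_zpowers f)
  have := Fact.mk C.data.prime
  obtain ⟨m, hm⟩ := mem_zpowers_of_prime_card (G := Subgroup.zpowers f) (p := orderOf f)
    (Nat.card_zpowers f) (g := ⟨g, hgf⟩) (g' := ⟨f, Subgroup.mem_zpowers f⟩)
    (fun e => hg1 (congrArg Subtype.val e))
  have hm' : g ^ m = f := congrArg Subtype.val hm
  have hzg : Commute z g := mul_inv_eq_iff_eq_mul.1 hgz
  have hzf' : Commute z f := hm' ▸ hzg.zpow_right m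
  refine C.not_invol_mem hz ?_
  rw [C.data.cent_eq, Subgroup.mem_centralizer_singleton_iff]
  exact hzf'.eq

/-- Every proper subgroup containing `A` is solvable. -/
def Small (A : Subgroup G) : Prop := ∀ Y : Subgroup G, A ≤ Y → Y ≠ ⊤ → Group.IsSolvable Y

/-- An involution inverting an element of odd prime order in `A` normalises `A`; no involution
centralises that element. -/
theorem Cfg.key [Finite G] [Nontrivial V] (C : Cfg π ρ A f) (hS : Small A) {y i : G}
    (hy : y ∈ A) (hp : OddPrimeOrder y) (hi : orderOf i = 2) (hinv : i * y * i⁻¹ = y⁻¹) :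
    (∀ a ∈ A, i * a * i⁻¹ ∈ A) ∧ ∀ z : G, orderOf z = 2 → ¬ Commute z y := by
  have hiy : ¬ Commute i y := by
    intro h
    have h1 : y = y⁻¹ := by rw [← hinv, h.eq, mul_inv_cancel_right]
    have h2 : orderOf y ∣ 2 := orderOf_dvd_of_pow_eq_one (by
      rw [pow_two]; nth_rewrite 1 [h1]; exact inv_mul_cancel y)
    exact hp.2 ((Nat.prime_dvd_prime_iff_eq hp.1 Nat.prime_two).1 h2)
  have hAY : A ≤ cent y := fun a ha =>
    Subgroup.mem_centralizer_singleton_iff.2 (C.comm ha hy).eq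
  have hne : cent y ≠ ⊤ := fun e => hiy
    (Subgroup.mem_centralizer_singleton_iff.1 (e ▸ Subgroup.mem_top i : i ∈ cent y))
  have := hS _ hAY hne
  obtain ⟨hnorm, hmem⟩ := C.local_normal hAY
  have hiA : ∀ a ∈ A, i * a * i⁻¹ ∈ A := by
    intro a ha
    refine hmem _ (Subgroup.mem_centralizer_singleton_iff.2 ?_) ?_
    · have h1 : Commute (i * a * i⁻¹) (i * y⁻¹ * i⁻¹) :=
        (Commute.conj_iff _).2 ((C.comm ha hy).inv_right)
      have h2 : i * y⁻¹ * i⁻¹ = y := by rw [← conj_inv, hinv, inv_inv]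
      rw [h2] at h1
      exact h1.eq
    · rw [H28.orderOf_conj_eq]
      exact piNum_of_dvd C.data.card (Subgroup.orderOf_dvd_natCard A ha)
  refine ⟨hiA, fun z hz hzy => hiy ?_⟩
  have hzY : z ∈ cent y := Subgroup.mem_centralizer_singleton_iff.2 hzy.eq
  have h1 := C.invol_inverts hz (hnorm z hzY)
  have h2 := C.invol_inverts hi hiA
  have h3 : (i * z) * f * (i * z)⁻¹ = f := by
    calc (i * z) * f * (i * z)⁻¹ = i * (z * f * z⁻¹) * i⁻¹ := by group
      _ = f := by rw [h1, ← conj_inv, h2, inv_inv]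
  have h4 : i * z ∈ A := by
    rw [C.data.cent_eq, Subgroup.mem_centralizer_singleton_iff]
    exact mul_inv_eq_iff_eq_mul.1 h3
  have h5 : Commute (i * z * z⁻¹) y := (C.comm h4 hy).mul_left hzy.inv_left
  rwa [mul_inv_cancel_right] at h5

/-- The conjugate form of `Cfg.key`. -/
theorem Cfg.key_conj [Finite G] [Nontrivial V] (C : Cfg π ρ A f) (hS : Small A) {y i : G}
    (hp : OddPrimeOrder y) (hi : orderOf i = 2) (hinv : i * y * i⁻¹ = y⁻¹) :
    ∃ x : G, x⁻¹ * y * x ∈ A ∧ (∀ a ∈ A, x⁻¹ * i * x * a * (x⁻¹ * i * x)⁻¹ ∈ A) ∧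
      ∀ z : G, orderOf z = 2 → ¬ Commute z y := by
  have hpi : PiNum π (orderOf y) :=
    piNum_prime hp.1 (C.data.real_prime y hp (isConj_iff.2 ⟨i, hinv⟩))
  obtain ⟨x, hx⟩ := C.exists_conj_elem hpi
  have ho : ∀ b : G, orderOf (x⁻¹ * b * x) = orderOf b := fun b => by
    rw [show x⁻¹ * b * x = x⁻¹ * b * x⁻¹⁻¹ by rw [inv_inv], H28.orderOf_conj_eq]
  obtain ⟨h1, h2⟩ := C.key hS hx (i := x⁻¹ * i * x)
    (by rw [OddPrimeOrder, ho]; exact hp) (by rw [ho, hi]) (by
      rw [show x⁻¹ * i * x * (x⁻¹ * y * x) * (x⁻¹ * i * x)⁻¹ = x⁻¹ * (i * y * i⁻¹) * x by group,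
        hinv]
      group)
  refine ⟨x, hx, h1, fun z hz hzy => h2 (x⁻¹ * z * x) (by rw [ho, hz]) ?_⟩
  have h3 := hzy.map (MulAut.conj x⁻¹).toMonoidHom
  simpa using h3

theorem Cfg.pCore_two [Finite G] [Nontrivial V] (C : Cfg π ρ A f) :
    Cfsg.pCore 2 G = ⊥ :=
  have := Fact.mk Nat.prime_two
  C.pCore_eq_bot C.two

/-- Baer–Suzuki: every involution inverts an element of odd prime order. -/
theorem Cfg.exists_real [Finite G] [Nontrivial V] (C : Cfg π ρ A f) {u : G}
    (hu : orderOf u = 2) : ∃ y : G, StronglyRealPrime y ∧ u * y * u⁻¹ = y⁻¹ := by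
  have := Fact.mk Nat.prime_two
  by_contra hne
  obtain ⟨N, hN, hN2, huN⟩ := H28.baer_suzuki_element (p := 2) u (fun g => by
    have hv : orderOf (g * u * g⁻¹) = 2 := by rw [H28.orderOf_conj_eq, hu]
    rcases two_power_or_real hu hv with ⟨a, ha⟩ | ⟨y, h1, h2, -⟩
    · exact H28.isPGroup_closure_pair hu hv ha
    · exact absurd ⟨y, h1, h2⟩ hne)
  have h1 : u ∈ Cfsg.pCore 2 G := H19.le_pCore hN hN2 huN
  rw [C.pCore_two, Subgroup.mem_bot] at h1
  simp [h1] at hu

theorem Cfg.fix_le [Finite G] [Nontrivial V] (C : Cfg π ρ A f) (hS : Small A) {u z : G}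
    (hu : orderOf u = 2) (hz : orderOf z = 2) (hc : Commute u z) : fixV ρ u ≤ fixV ρ z := by
  have := Fact.mk Nat.prime_two
  set Cu : Subgroup G := cent u with hCu
  have huC : u ∈ Cu := Subgroup.mem_centralizer_singleton_iff.2 rfl
  have hzC : z ∈ Cu := Subgroup.mem_centralizer_singleton_iff.2 hc.symm.eq
  obtain ⟨N₀, hN₀, hN₀2, hzN₀⟩ := H28.baer_suzuki_element (p := 2) (⟨z, hzC⟩ : Cu) (fun g => by
    have hz' : orderOf (⟨z, hzC⟩ : Cu) = 2 := by rw [Subgroup.orderOf_mk, hz]
    have hv : orderOf (g * ⟨z, hzC⟩ * g⁻¹ : Cu) = 2 := by rw [H28.orderOf_conj_eq, hz']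
    have hvG : orderOf ((g : G) * z * (g : G)⁻¹) = 2 := by rw [H28.orderOf_conj_eq, hz]
    rcases two_power_or_real hz hvG with ⟨a, ha⟩ | ⟨y, h1, h2, hy⟩
    · refine H28.isPGroup_closure_pair hz' hv (a := a) ?_
      rw [← Subgroup.orderOf_coe]
      exact ha
    · exfalso
      obtain ⟨x, -, -, hno⟩ := C.key_conj hS h1.1 hz h2
      have hyC : y ∈ Cu := Subgroup.zpowers_le.2
        (Cu.mul_mem hzC (Cu.mul_mem (Cu.mul_mem g.2 hzC) (Cu.inv_mem g.2))) hy
      exact hno u hu (Subgroup.mem_centralizer_singleton_iff.1 hyC).symm)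
  -- enlarge the normal `2`-subgroup by the central involution
  have hun : (Subgroup.zpowers (⟨u, huC⟩ : Cu)).Normal := by
    refine ⟨fun n hn g => ?_⟩
    obtain ⟨j, rfl⟩ := hn
    have hgu : Commute g (⟨u, huC⟩ : Cu) :=
      Subtype.ext (Subgroup.mem_centralizer_singleton_iff.1 g.2)
    simp only
    rw [(hgu.zpow_right j).eq, mul_inv_cancel_right]
    exact ⟨j, rfl⟩
  set N := N₀ ⊔ Subgroup.zpowers (⟨u, huC⟩ : Cu) with hN
  have hu2 : IsPGroup 2 (Subgroup.zpowers (⟨u, huC⟩ : Cu)) :=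
    IsPGroup.of_card (n := 1) (by rw [Nat.card_zpowers, Subgroup.orderOf_mk, hu, pow_one])
  have hN2 : IsPGroup 2 N := hN₀2.to_sup_of_normal_left hu2
  have hNn : N.Normal := Subgroup.sup_normal _ _
  intro w hw
  rw [mem_fixV] at hw ⊢
  by_cases hw0 : w = 0
  · rw [hw0, map_zero]
  obtain ⟨g, hg⟩ := C.exists_fixed (N := N.map Cu.subtype) (hN2.map Cu.subtype) C.two hw0
  obtain ⟨y, hy, hyi⟩ := C.exists_real hu
  obtain ⟨x, -, hux, -⟩ := C.key_conj hS hy.1 hu hyi
  obtain ⟨a, ha, hag⟩ := C.ht (ρ x⁻¹ w) (fun e => hw0 ((ρ x⁻¹).map_eq_zero_iff.1 e))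
    (x⁻¹ * g * x)
  set a' := x * a * x⁻¹ with ha'
  have haw : ρ a' w = ρ g w := by
    rw [ha', act_mul, act_mul, hag, ← act_mul, ← act_mul]
    congr 2
    group
  have huN : u ∈ N.map Cu.subtype :=
    ⟨⟨u, huC⟩, (le_sup_right : _ ≤ N) (Subgroup.mem_zpowers _), rfl⟩
  have hua : a'⁻¹ * (u * a' * u⁻¹) = 1 := by
    have h1 : ρ (a'⁻¹ * (u * a' * u⁻¹)) w = w := by
      have hui : ρ u⁻¹ w = w := by
        conv_lhs => rw [← hw]
        rw [← act_mul, inv_mul_cancel, map_one]
        rfl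
      rw [act_mul, act_mul, act_mul, hui, haw, hg u huN, ← haw, ← act_mul, inv_mul_cancel,
        map_one]
      rfl
    by_contra hne
    set b := a⁻¹ * (x⁻¹ * u * x * a * (x⁻¹ * u * x)⁻¹) with hb
    have hbA : b ∈ A := A.mul_mem (A.inv_mem ha) (hux a ha)
    have hconj : a'⁻¹ * (u * a' * u⁻¹) = x * b * x⁻¹ := by rw [hb, ha']; group
    rw [hconj] at h1 hne
    have hb1 : b ≠ 1 := fun e => hne (by rw [e]; group)
    have h2 : ρ b (ρ x⁻¹ w) = ρ x⁻¹ w := by
      conv_rhs => rw [← h1]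
      rw [← act_mul, ← act_mul]
      congr 2
      group
    exact hw0 ((ρ x⁻¹).map_eq_zero_iff.1 (C.data.semireg b hbA hb1 _ h2))
  have haC : a' ∈ Cu := by
    rw [hCu, Subgroup.mem_centralizer_singleton_iff]
    exact (mul_inv_eq_iff_eq_mul.1 (inv_mul_eq_one.1 hua).symm).symm
  have hzN : z ∈ N.map Cu.subtype := ⟨⟨z, hzC⟩, (le_sup_left : _ ≤ N) hzN₀, rfl⟩
  have hconjN : a' * z * a'⁻¹ ∈ N.map Cu.subtype :=
    ⟨⟨a', haC⟩ * ⟨z, hzC⟩ * (⟨a', haC⟩ : Cu)⁻¹,
      hNn.conj_mem _ ((le_sup_left : _ ≤ N) hzN₀) _, rfl⟩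
  have h3 := hg _ hconjN
  rw [← haw, ← act_mul, inv_mul_cancel_right, act_mul] at h3
  exact (ρ a').injective h3

theorem Cfg.endHyp [Finite G] [Nontrivial V] (C : Cfg π ρ A f) (hS : Small A) :
    EndHyp ρ where
  inj := C.inj
  irr W hW := C.data.irreducible W (fun w hw => hW f w hw)
  odd v hv := by rw [C.index_stab hv]; exact C.card_odd
  fix_eq u z hu hz hc := le_antisymm (C.fix_le hS hu hz hc) (C.fix_le hS hz hu hc.symm)
  semireg := by
    rintro y ⟨hp, i, hi, hinv⟩ v hv
    obtain ⟨x, hx, -, -⟩ := C.key_conj hS hp hi hinv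
    have h1 : x⁻¹ * y * x ≠ 1 := by
      intro e
      have : y = 1 := by
        rw [show y = x * (x⁻¹ * y * x) * x⁻¹ by group, e]
        group
      exact hp.1.ne_one (by rw [this, orderOf_one])
    refine (ρ x⁻¹).map_eq_zero_iff.1 (C.data.semireg _ hx h1 (ρ x⁻¹ v) ?_)
    rw [← act_mul, show x⁻¹ * y * x * x⁻¹ = x⁻¹ * y by group, act_mul, hv]
  trans := by
    rintro y ⟨hp, i, hi, hinv⟩ v hv g
    obtain ⟨x, hx, -, -⟩ := C.key_conj hS hp hi hinv
    obtain ⟨a, ha, hag⟩ := C.ht (ρ x⁻¹ v) (fun e => hv ((ρ x⁻¹).map_eq_zero_iff.1 e))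
      (x⁻¹ * g * x)
    refine ⟨x * a * x⁻¹, Subgroup.mem_centralizer_singleton_iff.2 ?_, ?_⟩
    · have h1 := ((C.comm ha hx).map (MulAut.conj x).toMonoidHom).eq
      simpa [mul_assoc] using h1
    · rw [act_mul, act_mul, hag, ← act_mul, ← act_mul]
      congr 2
      group

theorem solvable_aux [Nontrivial V] [Finite V] : ∀ (n : ℕ) (G : Type u) [Group G] [Finite G]
    (ρ : G →* (V ≃ₗ[ZMod 2] V)) (A : Subgroup G) (f : G), Nat.card G = n → Cfg π ρ A f →
    Group.IsSolvable G := by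
  intro n
  induction n using Nat.strong_induction_on with
  | _ n ih =>
    intro G _ _ ρ A f hn C
    have := Fact.mk Nat.prime_two
    have hS : Small A := by
      intro Y hAY hY
      refine ih (Nat.card Y) ?_ Y _ _ _ rfl (C.restrict hAY)
      rw [← hn]
      exact lt_of_le_of_ne Y.card_le_card_group fun e => hY (Subgroup.eq_top_of_card_eq _ e)
    by_contra hns
    have hev : 2 ∣ Nat.card G := by
      by_contra hodd
      exact hns (H25.PF14.odd_solvable G
        (Nat.not_even_iff_odd.1 (fun h => hodd (even_iff_two_dvd.1 h))))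
    obtain ⟨u, hu⟩ := exists_prime_orderOf_dvd_card' 2 hev
    have hiso := (C.endHyp hS).isolated hu
    set F := Cfsg.fittingSubgroup G with hF
    have hFn : F.Normal := H19.fitting_normal G
    set M := Subgroup.centralizer (F : Set G) with hM
    have hAM : A ≤ M := fun a ha =>
      Subgroup.mem_centralizer_iff.2 fun b hb => (C.comm (C.fitting_le hb) ha).eq
    by_cases hMt : M = ⊤
    · -- `F(G)` is central, so the involution is central
      have hcent : ∀ b ∈ F, ∀ g : G, b * g = g * b := fun b hb g =>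
        Subgroup.mem_centralizer_iff.1 (hMt.symm ▸ Subgroup.mem_top g : g ∈ M) b hb
      set O := Cfsg.pPrimeCore 2 G with hO
      have hOn : O.Normal := H19.pPrimeCore_normal 2 G
      have hOodd : Odd (Nat.card O) := Nat.coprime_two_right.1 (H19.pPrimeCore_coprime 2)
      have hOs : Group.IsSolvable O := H25.PF14.odd_solvable O hOodd
      have hFO : (Cfsg.fittingSubgroup O).map O.subtype ≤ F := by
        have := H19.fitting_characteristic O
        refine H19.le_fitting ConjAct.normal_of_characteristic_of_normal ?_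
        exact (Group.isNilpotent_congr
          (Subgroup.equivMapOfInjective _ O.subtype O.subtype_injective)).1
          H19.fitting_isNilpotent
      have hOF : ∀ o ∈ O, o ∈ F := by
        intro o ho
        refine hFO ⟨⟨o, ho⟩, H19.centralizer_fitting_le ?_, rfl⟩
        rw [Subgroup.mem_centralizer_iff]
        intro b hb
        exact Subtype.ext (hcent (b : G) (hFO ⟨b, hb, rfl⟩) o)
      have hu2 : u * u = 1 := by rw [← pow_two, ← hu, pow_orderOf_eq_one]
      have hui : u⁻¹ = u := inv_eq_of_mul_eq_one_right hu2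
      have hucomm : ∀ g : G, u * g = g * u := by
        intro g
        set o := u * g * u⁻¹ * g⁻¹ with ho
        have hoO : o ∈ O := H28.zStar hiso g
        have h1 : u * o * u⁻¹ = o⁻¹ := by
          rw [ho, hui]
          simp only [mul_inv_rev, inv_inv, hui, ← mul_assoc, hu2, one_mul]
        have h2 : u * o * u⁻¹ = o := by
          rw [← hcent o (hOF o hoO) u, mul_inv_cancel_right]
        have h3 : orderOf o ∣ 2 := orderOf_dvd_of_pow_eq_one (by
          rw [pow_two]
          nth_rewrite 1 [h2.symm.trans h1]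
          exact inv_mul_cancel o)
        have h4 : orderOf o = 1 := Nat.eq_one_of_dvd_coprimes
          (Nat.coprime_two_left.2 hOodd) h3 (Subgroup.orderOf_dvd_natCard O hoO)
        have h5 : u * g * u⁻¹ * g⁻¹ = 1 := orderOf_eq_one_iff.1 h4
        exact mul_inv_eq_iff_eq_mul.1 (mul_inv_eq_one.1 h5)
      rcases C.data.irreducible (fixV ρ u) (fun w hw => by
        rw [mem_fixV] at hw ⊢
        rw [← act_mul, hucomm f, act_mul, hw]) with hbot | htop
      · exact (C.endHyp hS).fixV_ne_bot hu hbot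
      · have h1 : ρ u = ρ 1 := by
          rw [map_one]
          exact LinearEquiv.ext fun w => mem_fixV.1 (htop ▸ Submodule.mem_top)
        simp [C.inj h1] at hu
    · -- `G / C(F(G))` is abelian
      have := hS M hAM hMt
      have hcyc : IsCyclic F := by
        have := C.data.cyclic
        exact Subgroup.isCyclic_of_le C.fitting_le
      obtain ⟨c, hc⟩ := (Subgroup.isCyclic_iff_exists_zpowers_eq_top F).1 hcyc
      have hMn : M.Normal := inferInstance
      have hcomm : ∀ g h : G, (h * g)⁻¹ * (g * h) ∈ M := by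
        intro g h
        have hcF : c ∈ F := hc ▸ Subgroup.mem_zpowers c
        obtain ⟨i, hi⟩ : g * c * g⁻¹ ∈ Subgroup.zpowers c := hc.symm ▸ hFn.conj_mem c hcF g
        obtain ⟨j, hj⟩ : h * c * h⁻¹ ∈ Subgroup.zpowers c := hc.symm ▸ hFn.conj_mem c hcF h
        simp only at hi hj
        have e1 : (g * h) * c * (g * h)⁻¹ = c ^ (i * j) := by
          rw [show (g * h) * c * (g * h)⁻¹ = g * (h * c * h⁻¹) * g⁻¹ by group, ← hj, ← conj_zpow,
            ← hi, ← zpow_mul]
        have e2 : (h * g) * c * (h * g)⁻¹ = c ^ (i * j) := by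
          rw [show (h * g) * c * (h * g)⁻¹ = h * (g * c * g⁻¹) * h⁻¹ by group, ← hi, ← conj_zpow,
            ← hj, ← zpow_mul, mul_comm]
        have e3 : Commute ((h * g)⁻¹ * (g * h)) c := by
          refine mul_inv_eq_iff_eq_mul.1 ?_
          calc (h * g)⁻¹ * (g * h) * c * ((h * g)⁻¹ * (g * h))⁻¹
              = (h * g)⁻¹ * ((g * h) * c * (g * h)⁻¹) * (h * g) := by group
            _ = c := by rw [e1, ← e2]; group
        rw [hM, Subgroup.mem_centralizer_iff]
        intro b hb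
        rw [SetLike.mem_coe, ← hc] at hb
        obtain ⟨k, rfl⟩ := hb
        exact (e3.zpow_right k).eq.symm
      have : Group.IsSolvable (G ⧸ M) := Group.isSolvable_of_comm fun a b => by
        induction a using QuotientGroup.induction_on with
        | H g =>
          induction b using QuotientGroup.induction_on with
          | H h => exact (QuotientGroup.eq.2 (hcomm g h)).symm
      exact hns (Group.isSolvable_of_ker_le_range M.subtype (QuotientGroup.mk' M)
        (by rw [QuotientGroup.ker_mk', Subgroup.range_subtype]))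

end Generic

variable {G : Type u} [Group G] [Finite G] {V : Type*} [AddCommGroup V] [Module (ZMod 2) V]
  [Finite V] [Nontrivial V] {π : Set ℕ} {ρ : G →* (V ≃ₗ[ZMod 2] V)} {A : Subgroup G} {f : G}

omit [Finite V] [Nontrivial V] in
/-- The cyclic Hall subgroup is transitive on each orbit of the whole group. -/
theorem HallData.exists_mem_eq (H : Hyp π ρ) (D : HallData π ρ A f) {v : V} (hv : v ≠ 0)
    (g : G) : ∃ a ∈ A, ρ a v = ρ g v := by
  have hcop : A.index.Coprime (stab ρ v).index :=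
    Nat.coprime_of_dvd fun q hq h1 h2 => D.index q hq h1 (H.orb v hv q hq h2)
  have hinj : Function.Injective fun a : A => (QuotientGroup.mk (a : G) : G ⧸ stab ρ v) := by
    intro a b h
    have h1 : (a : G)⁻¹ * b ∈ stab ρ v := QuotientGroup.eq.1 h
    by_contra hne
    exact hv (D.semireg _ (A.mul_mem (A.inv_mem a.2) b.2)
      (fun e => hne (Subtype.ext (inv_mul_eq_one.1 e))) v h1)
  have hle : (stab ρ v).index ≤ Nat.card A := by
    refine Nat.le_of_dvd Nat.card_pos (hcop.symm.dvd_of_dvd_mul_right ?_)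
    rw [A.card_mul_index]
    exact (stab ρ v).index_dvd_card
  obtain ⟨a, ha⟩ := ((Nat.bijective_iff_injective_and_card _).2 ⟨hinj, le_antisymm
    (Nat.card_le_card_of_injective _ hinj) (by rwa [← Subgroup.index_eq_card])⟩).2
    (QuotientGroup.mk g)
  refine ⟨a, a.2, ?_⟩
  have h1 : ρ ((a : G)⁻¹ * g) v = v := QuotientGroup.eq.1 ha
  conv_lhs => rw [← h1]
  rw [← LinearEquiv.mul_apply, ← map_mul, mul_inv_cancel_left]

/-- A group with such a Hall subgroup is solvable. -/
theorem HallData.solvable (H : Hyp π ρ) (D : HallData π ρ A f) : Group.IsSolvable G :=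
  Generic.solvable_aux (Nat.card G) G ρ A f rfl
    ⟨H.two, H.inj, D, fun _ hv g => D.exists_mem_eq H hv g⟩

end Cfsg.Agent.H13.RealSizes
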