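import Cfsg.Agent.H13.RealSizes.Defs

/-!
# A cyclic semiregular Hall subgroup of a linear group
-/

set_option autoImplicit false

namespace Cfsg.Agent.H13.RealSizes

open Cfsg.Agent.H45.Trans

variable {G : Type*} [Group G] {V : Type*} [AddCommGroup V] [Module (ZMod 2) V]

/-- The centraliser `A` of an element `f` of prime order is a cyclic Hall `π`-subgroup acting
semiregularly and irreducibly, and the orders of real elements of odd prime order lie in `π`. -/
structure HallData (π : Set ℕ) (ρ : G →* (V ≃ₗ[ZMod 2] V)) (A : Subgroup G) (f : G) : Prop where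
  cent_eq : A = cent f
  prime : (orderOf f).Prime
  cyclic : IsCyclic A
  card : PiNum π (Nat.card A)
  index : PiFree π A.index
  semireg : ∀ a ∈ A, a ≠ 1 → Semireg ρ a
  irreducible : ∀ W : Submodule (ZMod 2) V, (∀ w ∈ W, ρ f w ∈ W) → W = ⊥ ∨ W = ⊤
  real_prime : ∀ y : G, OddPrimeOrder y → IsConj y y⁻¹ → orderOf y ∈ π

end Cfsg.Agent.H13.RealSizes
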