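import Cfsg.Agent.H13.RealSizes.HallDefs
import Cfsg.Agent.H13.RealSizes.End
import Cfsg.Agent.H74.Zsigmondy
import Cfsg.Agent.H33.NilpotentHall
import Cfsg.Agent.S0007

/-!
# Existence of the cyclic semiregular Hall subgroup
-/

set_option autoImplicit false

namespace Cfsg.Agent.H13.RealSizes

open Cfsg.Agent.H45.Trans Subgroup Module

universe u

variable {G : Type u} [Group G] [Finite G] {V : Type*} [AddCommGroup V] [Module (ZMod 2) V]
  [Finite V] {π : Set ℕ} {ρ : G →* (V ≃ₗ[ZMod 2] V)}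

open scoped Pointwise

private theorem act_mul' (a b : G) (x : V) : ρ (a * b) x = ρ a (ρ b x) := by
  rw [map_mul, LinearEquiv.mul_apply]

/-- With odd orbits and 2-closed stabilisers each nonzero vector belongs to exactly one Sylow
2-subgroup, which gives the count of the nonzero vectors. -/
theorem exists_count [Nontrivial V] (hinj : Function.Injective ρ) (hev : Even (Nat.card G))
    (hodd : ∀ v : V, v ≠ 0 → Odd (stab ρ v).index)
    (htc : ∀ v : V, v ≠ 0 → TwoClosed (stab ρ v)) :
    ∃ k : ℕ, 0 < k ∧ k < finrank (ZMod 2) V ∧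
      2 ^ finrank (ZMod 2) V - 1 = Nat.card (Sylow 2 G) * (2 ^ k - 1) ∧
      ∀ v : V, v ≠ 0 → Nat.card (Sylow 2 G) ∣ (stab ρ v).index := by
  classical
  -- the unique Sylow subgroup fixing a nonzero vector
  have huniq : ∀ v : V, v ≠ 0 → ∀ S T : Sylow 2 G, (S : Subgroup G) ≤ stab ρ v →
      (T : Subgroup G) ≤ stab ρ v → S = T := by
    intro v hv S T hS hT
    obtain ⟨N, -, hN2, hN⟩ := htc v hv
    have hle : ∀ R : Sylow 2 G, (R : Subgroup G) ≤ stab ρ v → (R : Subgroup G) = N := by
      intro R hR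
      refine (R.is_maximal' hN2 fun x hx => ?_).symm
      obtain ⟨k, hk⟩ := R.isPGroup' ⟨x, hx⟩
      exact hN x (hR hx) k (by simpa using congrArg Subtype.val hk)
    exact Sylow.ext ((hle S hS).trans (hle T hT).symm)
  have hex : ∀ v : V, v ≠ 0 → ∃ S : Sylow 2 G, (S : Subgroup G) ≤ stab ρ v := by
    intro v hv
    obtain ⟨R⟩ := (inferInstance : Nonempty (Sylow 2 (stab ρ v)))
    have hR2 : IsPGroup 2 ((R : Subgroup (stab ρ v)).map (stab ρ v).subtype) :=
      R.isPGroup'.map _
    have hnd : ¬ 2 ∣ ((R : Subgroup (stab ρ v)).map (stab ρ v).subtype).index := by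
      rw [index_map_subtype]
      intro h
      rcases Nat.prime_two.dvd_mul.1 h with h | h
      · exact R.not_dvd_index h
      · exact Nat.not_even_iff_odd.2 (hodd v hv) (even_iff_two_dvd.2 h)
    exact ⟨hR2.toSylow hnd, map_subtype_le _⟩
  obtain ⟨S0⟩ := (inferInstance : Nonempty (Sylow 2 G))
  let F : Submodule (ZMod 2) V :=
    { carrier := {x | ∀ s ∈ (S0 : Subgroup G), ρ s x = x}
      add_mem' := fun {a b} ha hb s hs => by rw [map_add, ha s hs, hb s hs]
      zero_mem' := fun s _ => map_zero _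
      smul_mem' := fun c x hx s hs => by rw [map_smul, hx s hs] }
  have hmove : ∀ S : Sylow 2 G, ∃ g : G, g • S0 = S := fun S => MulAction.exists_smul_eq G S0 S
  choose g hg using hmove
  have hfix : ∀ (S : Sylow 2 G) (x : V),
      x ∈ F ↔ (S : Subgroup G) ≤ stab ρ (ρ (g S) x) := by
    intro S x
    have hS : (S : Subgroup G) = MulAut.conj (g S) • (S0 : Subgroup G) :=
      (congrArg Sylow.toSubgroup (hg S)).symm
    constructor
    · intro hx s hs
      rw [hS] at hs
      obtain ⟨a, ha, rfl⟩ := hs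
      change ρ (g S * a * (g S)⁻¹) (ρ (g S) x) = ρ (g S) x
      rw [← act_mul', show g S * a * (g S)⁻¹ * g S = g S * a by group, act_mul', hx a ha]
    · intro h s hs
      have hm : g S * s * (g S)⁻¹ ∈ (S : Subgroup G) := by
        rw [hS]
        exact ⟨s, hs, rfl⟩
      have h' : ρ (g S * s * (g S)⁻¹) (ρ (g S) x) = ρ (g S) x := h hm
      rw [← act_mul', show g S * s * (g S)⁻¹ * g S = g S * s by group, act_mul'] at h'
      exact (ρ (g S)).injective h'
  -- every nonzero vector is a unique translate of a fixed vector of `S0`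
  let Φ : Sylow 2 G × {x : F // x ≠ 0} → {v : V // v ≠ 0} := fun p =>
    ⟨ρ (g p.1) (p.2.1 : V), fun h => p.2.2 (Subtype.ext ((ρ (g p.1)).map_eq_zero_iff.1 h))⟩
  have hΦ : Function.Bijective Φ := by
    constructor
    · rintro ⟨S, x⟩ ⟨T, y⟩ h
      have h' : ρ (g S) (x.1 : V) = ρ (g T) (y.1 : V) := congrArg Subtype.val h
      obtain rfl : S = T := huniq (ρ (g S) (x.1 : V)) (Φ (S, x)).2 S T ((hfix S _).1 x.1.2)
        (by rw [h']; exact (hfix T _).1 y.1.2)
      exact Prod.ext rfl (Subtype.ext (Subtype.ext ((ρ (g S)).injective h')))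
    · rintro ⟨v, hv⟩
      obtain ⟨S, hS⟩ := hex v hv
      have hx : ρ (g S)⁻¹ v ∈ F := (hfix S _).2 (by rw [apply_inv_apply]; exact hS)
      exact ⟨⟨S, ⟨⟨_, hx⟩, fun h => hv ((ρ (g S)⁻¹).map_eq_zero_iff.1
        (congrArg Subtype.val h))⟩⟩, Subtype.ext (apply_inv_apply ρ (g S) v)⟩
  have hne : ∀ (W : Type _) [AddCommGroup W] [Module (ZMod 2) W] [Finite W],
      Nat.card {w : W // w ≠ 0} = 2 ^ finrank (ZMod 2) W - 1 := by
    intro W _ _ _
    rw [← card_V (p := 2) (V := W)]
    have := Fintype.ofFinite W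
    rw [Nat.card_eq_fintype_card, Nat.card_eq_fintype_card, Fintype.card_subtype_compl,
      Fintype.card_subtype_eq]
  have hcount := Nat.card_congr (Equiv.ofBijective Φ hΦ)
  rw [Nat.card_prod, hne, hne] at hcount
  refine ⟨finrank (ZMod 2) F, ?_, ?_, hcount.symm, ?_⟩
  · rw [Nat.pos_iff_ne_zero]
    intro h0
    rw [h0, pow_zero, Nat.sub_self, mul_zero] at hcount
    have : 1 < Nat.card V := Finite.one_lt_card
    rw [card_V (p := 2) (V := V)] at this
    omega
  · refine Submodule.finrank_lt fun htop => ?_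
    obtain ⟨u, hu⟩ := exists_prime_orderOf_dvd_card' 2 hev.two_dvd
    have hp : IsPGroup 2 (zpowers u) :=
      IsPGroup.of_card (n := 1) (by rw [Nat.card_zpowers, hu, pow_one])
    obtain ⟨U, hU⟩ := hp.exists_le_sylow
    have h1 : ρ u = 1 := LinearEquiv.ext fun x => by
      have hx : ρ (g U)⁻¹ x ∈ F := htop ▸ Submodule.mem_top
      have := (hfix U _).1 hx (hU (mem_zpowers u))
      rwa [mem_stab, apply_inv_apply] at this
    rw [← map_one ρ] at h1
    rw [hinj h1, orderOf_one] at hu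
    exact absurd hu (by decide)
  · intro v hv
    obtain ⟨S, hS⟩ := hex v hv
    rw [Sylow.card_eq_index_normalizer S]
    refine index_dvd_of_le fun a ha => ?_
    refine Sylow.smul_eq_iff_mem_normalizer.1 (huniq v hv _ _ (fun s hs => ?_) hS)
    change s ∈ MulAut.conj a • (S : Subgroup G) at hs
    obtain ⟨b, hb, rfl⟩ := hs
    exact mul_mem (mul_mem ha (hS hb)) (inv_mem ha)

/-- In a cyclic subgroup the elements of a prime order generate the same subgroup. -/
theorem mem_zpowers_of_cyclic {A : Subgroup G} (hA : IsCyclic A) {p : ℕ} (hp : 0 < p) {f a : G}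
    (hf : f ∈ A) (hfp : orderOf f = p) (ha : a ∈ A) (hap : a ^ p = 1) : a ∈ zpowers f := by
  classical
  letI := Fintype.ofFinite A
  haveI := hA
  set f' : A := ⟨f, hf⟩
  have hsub : (Finset.univ.filter fun x : A => x ∈ zpowers f') ⊆
      Finset.univ.filter fun x : A => x ^ p = 1 := by
    intro x hx
    simp only [Finset.mem_filter, Finset.mem_univ, true_and] at hx ⊢
    obtain ⟨i, rfl⟩ := mem_zpowers_iff.1 hx
    rw [← zpow_natCast, ← zpow_mul, mul_comm, zpow_mul, zpow_natCast,
      show f' ^ p = 1 from Subtype.ext (by rw [← hfp]; exact pow_orderOf_eq_one f), one_zpow]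
  have hcard : (Finset.univ.filter fun x : A => x ^ p = 1).card ≤
      (Finset.univ.filter fun x : A => x ∈ zpowers f').card := by
    refine (IsCyclic.card_pow_eq_one_le hp).trans ?_
    rw [← Fintype.card_subtype, ← Nat.card_eq_fintype_card]
    exact le_of_eq (by rw [← hfp, ← orderOf_mk f hf]; exact (Nat.card_zpowers f').symm)
  have hmem : (⟨a, ha⟩ : A) ∈ Finset.univ.filter fun x : A => x ∈ zpowers f' := by
    rw [Finset.eq_of_subset_of_card_le hsub hcard]
    simp only [Finset.mem_filter, Finset.mem_univ, true_and]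
    exact Subtype.ext (by simpa using hap)
  simp only [Finset.mem_filter, Finset.mem_univ, true_and] at hmem
  obtain ⟨i, hi⟩ := mem_zpowers_iff.1 hmem
  exact mem_zpowers_iff.2 ⟨i, by simpa [f'] using congrArg Subtype.val hi⟩

/-- The Hall subgroup, from the facts about stabilisers and inverted elements. -/
theorem exists_hallData_of [Nontrivial V] (H : Hyp π ρ) (hev : Even (Nat.card G))
    (hV : Nat.card V ≠ 64) (hodd : ∀ v : V, v ≠ 0 → Odd (stab ρ v).index)
    (htc : ∀ v : V, v ≠ 0 → TwoClosed (stab ρ v))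
    (hinv : ∀ {u : G}, orderOf u = 2 → ∃ y : G, OddPrimeOrder y ∧ u * y * u⁻¹ = y⁻¹) :
    ∃ (A : Subgroup G) (f : G), HallData π ρ A f := by
  obtain ⟨k, hk0, hkn, hcount, hdvd⟩ := exists_count H.inj hev hodd htc
  set n := finrank (ZMod 2) V with hn
  obtain ⟨v, hv⟩ := exists_ne (0 : V)
  obtain ⟨p, hp, hpd, hprim⟩ := H74.zsigmondy (a := 2) (n := n) (by omega) (by omega)
    (fun h => hV (by rw [card_V (p := 2) (V := V), ← hn, h.2]; rfl))
    (fun h => by
      obtain ⟨m, hm⟩ := h.2
      rcases m with _ | _ | m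
      · simp at hm
      · simp at hm
      · rw [pow_succ, pow_succ] at hm; omega)
  haveI := Fact.mk hp
  have hpn : p ∣ (stab ρ v).index := by
    rw [hcount] at hpd
    rcases hp.dvd_mul.1 hpd with h | h
    · exact h.trans (hdvd v hv)
    · exact absurd h (hprim k hk0 hkn)
  have hpπ : p ∈ π := H.orb v hv p hp hpn
  have hp2 : p ≠ 2 := fun h => H.two (h ▸ hpπ)
  have hpG : p ∣ Nat.card G := hpn.trans (index_dvd_card _)
  -- elements of order `p`
  have helem : ∀ c : G, orderOf c = p →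
      (∀ W : Submodule (ZMod 2) V, (∀ w ∈ W, ρ c w ∈ W) → W = ⊥ ∨ W = ⊤) ∧
      IsCyclic (cent c) ∧ (∀ a ∈ cent c, a ≠ 1 → Semireg ρ a) ∧
      ∀ i : G, orderOf i = 2 → i ∉ cent c := by
    intro c hc
    obtain ⟨-, hirr⟩ := irreducible_of_primitive H.inj hp2 hprim hc
    have hsemi : ∀ a ∈ cent c, a ≠ 1 → Semireg ρ a := by
      intro a ha ha1 x hx
      rw [mem_centralizer_singleton_iff] at ha
      rcases hirr (fixV ρ a) (fun w hw => map_fixV_mem ha hw) with h | h
      · exact (Submodule.mem_bot _).1 (h ▸ mem_fixV.2 hx)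
      · refine absurd (H.inj ?_) ha1
        rw [map_one]
        exact LinearEquiv.ext fun w => mem_fixV.1 (h ▸ Submodule.mem_top)
    refine ⟨hirr, isCyclic_of_commutant H.inj hirr, hsemi, fun i hi hic => ?_⟩
    obtain ⟨w, -, hw0, hw⟩ := exists_fixed_of_invariant (ρ := ρ) hi (W := ⊤)
      (fun _ _ => Submodule.mem_top) top_ne_bot
    exact hw0 (hsemi i hic (fun h => by rw [h, orderOf_one] at hi; omega) w hw)
  have hcenty : ∀ y : G, OddPrimeOrder y → IsConj y y⁻¹ →
      ∃ c : cent y, orderOf c = p := by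
    intro y hy hr
    refine exists_prime_orderOf_dvd_card' p ?_
    rw [← (cent y).card_mul_index] at hpG
    exact (hp.dvd_mul.1 hpG).resolve_right fun h => H.real y hy hr p hp h hpπ
  -- a first real element and an inverter normalising a Sylow `p`-subgroup of its centraliser
  obtain ⟨u, hu⟩ := exists_prime_orderOf_dvd_card' 2 hev.two_dvd
  obtain ⟨y, hy, huy⟩ := hinv hu
  have hyr : IsConj y y⁻¹ := isConj_iff.2 ⟨u, huy⟩
  have hK : ∀ a ∈ cent y, u * a * u⁻¹ ∈ cent y := by
    intro a ha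
    rw [mem_centralizer_singleton_iff] at ha ⊢
    have e : u * y⁻¹ * u⁻¹ = y := by rw [← conj_inv, huy, inv_inv]
    calc u * a * u⁻¹ * y = u * a * u⁻¹ * (u * y⁻¹ * u⁻¹) := by rw [e]
      _ = u * (a * y⁻¹) * u⁻¹ := by group
      _ = u * (y⁻¹ * a) * u⁻¹ := by rw [(Commute.inv_right ha).eq]
      _ = (u * y⁻¹ * u⁻¹) * (u * a * u⁻¹) := by group
      _ = _ := by rw [e]
  obtain ⟨P⟩ := (inferInstance : Nonempty (Sylow p (cent y)))
  have huinv : ∀ a ∈ cent y, u⁻¹ * a * u ∈ cent y := by
    intro a ha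
    have h2 : u⁻¹ = u := inv_eq_of_mul_eq_one_right (by rw [← pow_two, ← hu, pow_orderOf_eq_one])
    have := hK a ha
    rwa [h2] at this ⊢
  let φ : MulAut (cent y) :=
    { toFun := fun a => ⟨u * a * u⁻¹, hK a a.2⟩
      invFun := fun a => ⟨u⁻¹ * a * u, huinv a a.2⟩
      left_inv := fun a => Subtype.ext (by simp [mul_assoc])
      right_inv := fun a => Subtype.ext (by simp [mul_assoc])
      map_mul' := fun a b => Subtype.ext (by simp [mul_assoc]) }
  obtain ⟨c, hc⟩ := MulAction.exists_smul_eq (cent y) (φ • P) P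
  set P' := (P : Subgroup (cent y)).map (cent y).subtype with hP'
  have hgn : ∀ a ∈ P', ((c : G) * u) * a * ((c : G) * u)⁻¹ ∈ P' := by
    rintro _ ⟨a, ha, rfl⟩
    have h0 : φ a ∈ ((φ • P : Sylow p (cent y)) : Subgroup (cent y)) :=
      smul_mem_pointwise_smul a φ _ ha
    have h1 : MulAut.conj c (φ a) ∈ (P : Subgroup (cent y)) := by
      rw [← hc]
      exact smul_mem_pointwise_smul (φ a) (MulAut.conj c) _ h0
    exact ⟨_, h1, by simp [φ, mul_assoc]⟩
  have hgy : ((c : G) * u) * y * ((c : G) * u)⁻¹ = y⁻¹ := by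
    have hcy : Commute (c : G) y⁻¹ :=
      (show Commute (c : G) y from mem_centralizer_singleton_iff.1 c.2).inv_right
    calc ((c : G) * u) * y * ((c : G) * u)⁻¹ = (c : G) * (u * y * u⁻¹) * (c : G)⁻¹ := by group
      _ = y⁻¹ := by rw [huy, hcy.eq, mul_inv_cancel_right]
  set g0 := (c : G) * u
  -- its 2-part
  obtain ⟨e, m, hm, hem⟩ := Nat.exists_eq_two_pow_mul_odd (orderOf_pos g0).ne'
  have hpow : ∀ j : ℕ, g0 ^ j * y * (g0 ^ j)⁻¹ = if Even j then y else y⁻¹ := by
    intro j
    induction j with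
    | zero => simp
    | succ j ih =>
      rw [pow_succ']
      calc _ = g0 * (g0 ^ j * y * (g0 ^ j)⁻¹) * g0⁻¹ := by group
        _ = _ := by
          rw [ih]
          by_cases hj : Even j
          · simp [hj, Nat.even_add_one, hgy]
          · simp only [hj, if_false, Nat.even_add_one, not_false_eq_true, if_true]
            rw [← conj_inv, hgy, inv_inv]
  have hgm := hpow m
  rw [if_neg (Nat.not_even_iff_odd.2 hm)] at hgm
  have he : e ≠ 0 := by
    rintro rfl
    rw [pow_zero, one_mul] at hem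
    rw [← hem, pow_orderOf_eq_one] at hgm
    have hy2 : orderOf y ∣ 2 := orderOf_dvd_of_pow_eq_one (by
      rw [pow_two]
      have e' : y = y⁻¹ := by simpa using hgm
      nth_rw 2 [e']
      exact mul_inv_cancel y)
    exact hy.2 ((Nat.prime_dvd_prime_iff_eq hy.1 Nat.prime_two).1 hy2)
  set i := g0 ^ (2 ^ (e - 1) * m) with hi
  have hi2 : orderOf i = 2 := by
    have e1 : 2 ^ e * m = 2 * (2 ^ (e - 1) * m) := by
      rw [← mul_assoc, ← pow_succ', Nat.sub_add_cancel (by omega)]
    have hpos : 0 < 2 ^ (e - 1) * m := Nat.mul_pos (by positivity) hm.pos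
    rw [hi, orderOf_pow' _ hpos.ne', hem, e1, Nat.gcd_eq_right (Dvd.intro_left _ rfl),
      Nat.mul_div_cancel _ hpos]
  have hin : ∀ a ∈ P', i * a * i⁻¹ ∈ P' := by
    have : ∀ j : ℕ, ∀ a ∈ P', g0 ^ j * a * (g0 ^ j)⁻¹ ∈ P' := by
      intro j
      induction j with
      | zero => intro a ha; simpa using ha
      | succ j ih =>
        intro a ha
        rw [pow_succ', show g0 * g0 ^ j * a * (g0 * g0 ^ j)⁻¹ =
          g0 * (g0 ^ j * a * (g0 ^ j)⁻¹) * g0⁻¹ by group]
        exact hgn _ (ih a ha)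
    exact this _
  -- the element `f`
  have hP1 : P' ≠ ⊥ := by
    obtain ⟨d, hd⟩ := hcenty y hy hyr
    rw [hP', Ne, map_eq_bot_iff_of_injective _ (subtype_injective _)]
    intro hbot
    have hdvdc : p ∣ Nat.card (cent y) := hd ▸ orderOf_dvd_natCard d
    exact Sylow.ne_bot_of_dvd_card P hdvdc hbot
  have hP'p : IsPGroup p P' := P.isPGroup'.map _
  haveI : Nontrivial P' := P'.nontrivial_iff_ne_bot.2 hP1
  obtain ⟨z, hz⟩ : ∃ z : center P', orderOf z = p := by
    haveI := hP'p.center_nontrivial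
    refine exists_prime_orderOf_dvd_card' p ?_
    obtain ⟨j, hj⟩ := IsPGroup.iff_card.1 (hP'p.to_subgroup (center P'))
    rw [hj]
    refine dvd_pow_self p fun h => ?_
    rw [h, pow_zero] at hj
    exact (Finite.one_lt_card (α := center P')).ne' hj
  set f : G := ((z : P') : G) with hf
  have hfp : orderOf f = p := by rw [hf, orderOf_coe, orderOf_coe, hz]
  obtain ⟨hirrf, hcyc, hsemi, hodd2⟩ := helem f hfp
  have hP'f : P' ≤ cent f := fun a ha => by
    rw [mem_centralizer_singleton_iff]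
    exact congrArg Subtype.val (mem_center_iff.1 z.2 ⟨a, ha⟩)
  have hfself : f ∈ cent f := mem_centralizer_singleton_iff.2 rfl
  have hif : i * f * i⁻¹ ∈ zpowers f :=
    mem_zpowers_of_cyclic hcyc hp.pos hfself hfp (hP'f (hin f (z : P').2))
      (by rw [conj_pow, ← hfp, pow_orderOf_eq_one, mul_one, mul_inv_cancel])
  have hinvf : i * f * i⁻¹ = f⁻¹ := by
    have hii : i * i = 1 := by rw [← pow_two, ← hi2, pow_orderOf_eq_one]
    set w := f * (i * f * i⁻¹) with hw
    have hwz : w ∈ zpowers f := mul_mem (mem_zpowers f) hif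
    by_contra hne
    have hw1 : w ≠ 1 := fun h => hne (eq_inv_of_mul_eq_one_right h)
    have hwp : orderOf w = p := by
      have hd : orderOf w ∣ p := by
        rw [← hfp, ← Nat.card_zpowers f, ← orderOf_mk w hwz]
        exact orderOf_dvd_natCard _
      exact (hp.eq_one_or_self_of_dvd _ hd).resolve_left (mt orderOf_eq_one_iff.1 hw1)
    refine (helem w hwp).2.2.2 i hi2 (mem_centralizer_singleton_iff.2 ?_)
    have hcf : Commute f (i * f * i⁻¹) := by
      obtain ⟨j, hj⟩ := mem_zpowers_iff.1 hif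
      rw [← hj]
      exact (Commute.refl f).zpow_right j
    have hinvi : i⁻¹ = i := inv_eq_of_mul_eq_one_right hii
    have h1 : i * w * i⁻¹ = w := by
      calc i * w * i⁻¹ = (i * f * i⁻¹) * ((i * i) * f * (i * i)⁻¹) := by rw [hw]; group
        _ = w := by rw [hii, inv_one, one_mul, mul_one, hw, hcf.eq]
    exact mul_inv_eq_iff_eq_mul.1 h1
  have hfo : OddPrimeOrder f := ⟨hfp.symm ▸ hp, hfp.symm ▸ hp2⟩
  have hfr : IsConj f f⁻¹ := isConj_iff.2 ⟨i, hinvf⟩
  have hfree : PiFree π (cent f).index := H.real f hfo hfr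
  -- its order
  have hbot : cent f ⊓ stab ρ v = ⊥ := by
    refine (eq_bot_iff_forall _).2 fun a ha => ?_
    by_contra ha1
    exact hv (hsemi a ha.1 ha1 v ha.2)
  have hcop : (cent f).index.Coprime (stab ρ v).index :=
    Nat.coprime_of_dvd fun q hq h1 h2 => hfree q hq h1 (H.orb v hv q hq h2)
  have hcard : Nat.card (cent f) = (stab ρ v).index := by
    have h1 := (S0007.result _ _ hcop).1
    rw [hbot, index_bot, ← (cent f).card_mul_index, mul_comm] at h1
    exact mul_left_cancel₀ index_ne_zero_of_finite h1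
  refine ⟨cent f, f, rfl, hfp.symm ▸ hp, hcyc, hcard ▸ H.orb v hv, hfree, hsemi, hirrf, ?_⟩
  intro y' hy' hr'
  obtain ⟨d, hd⟩ := hcenty y' hy' hr'
  haveI := hcyc
  letI := hcyc.commGroup
  have hnil : Group.IsNilpotent (cent f) := inferInstance
  obtain ⟨x, hx⟩ := H33.exists_conj_of_nilpotent_hall _ (cent f) (zpowers (d : G)) hnil
    (Nat.coprime_of_dvd fun q hq h1 h2 =>
      hfree q hq h2 ((hcard ▸ H.orb v hv : PiNum π (Nat.card (cent f))) q hq h1))
    (fun q hq h => by
      rw [Nat.card_zpowers, orderOf_coe, hd] at h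
      rw [(Nat.prime_dvd_prime_iff_eq hq hp).1 h, ← hfp, ← orderOf_mk f hfself]
      exact orderOf_dvd_natCard _) rfl
  have hxa : x⁻¹ * d * x ∈ cent f := by
    have h := mem_pointwise_smul_iff_inv_smul_mem.1 (hx (mem_zpowers (d : G)))
    change (MulAut.conj x)⁻¹ (d : G) ∈ cent f at h
    simpa [MulAut.conj_inv_apply] using h
  set a := x⁻¹ * (d : G) * x with ha
  have hap : orderOf a = p := by
    have h := (MulAut.conj x⁻¹).orderOf_eq (d : G)
    rw [orderOf_coe, hd, MulAut.conj_apply, inv_inv] at h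
    exact h
  have hfa : f ∈ zpowers a :=
    mem_zpowers_of_cyclic hcyc hp.pos hxa hap hfself (by rw [← hfp, pow_orderOf_eq_one])
  have hy'f : x⁻¹ * y' * x ∈ cent f := by
    rw [mem_centralizer_singleton_iff]
    obtain ⟨j, hj⟩ := mem_zpowers_iff.1 hfa
    have hdy : Commute y' (d : G) := (mem_centralizer_singleton_iff.1 d.2).symm
    have hya : Commute (x⁻¹ * y' * x) a := by
      change x⁻¹ * y' * x * (x⁻¹ * d * x) = x⁻¹ * d * x * (x⁻¹ * y' * x)
      calc x⁻¹ * y' * x * (x⁻¹ * d * x) = x⁻¹ * (y' * d) * x := by group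
        _ = x⁻¹ * (d * y') * x := by rw [hdy.eq]
        _ = _ := by group
    rw [← hj]
    exact hya.zpow_right j
  refine (hcard ▸ H.orb v hv : PiNum π (Nat.card (cent f))) _ hy'.1 ?_
  have h := (MulAut.conj x⁻¹).orderOf_eq y'
  rw [MulAut.conj_apply, inv_inv] at h
  rw [← h, ← orderOf_mk _ hy'f]
  exact orderOf_dvd_natCard _

end Cfsg.Agent.H13.RealSizes
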